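import Mathlib
import Cfsg.Agent.S3993

/-!
# Equally partitioned groups (abelian components)

A finite group partitioned by abelian subgroups of equal order, at least two of them, is a `p`-group.
The proof counts solutions of `x ^ A = 1`, `x ^ B = 1` for `|E| = A * B` coprime, with Frobenius' theorem.
-/

set_option autoImplicit false

namespace Cfsg.Agent.Lib.ClassSize.Partition

open Subgroup

universe u

/-- The arithmetic core. -/
theorem arith {a b α β t E₁ E₂ : ℕ} (ha : 2 ≤ a) (hb : 2 ≤ b) (hcop : Nat.Coprime (a * α) (b * β))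
    (hn : 1 < α * β) (hcard : (a * α) * (b * β) + t = 1 + t * (a * b))
    (h₁ : E₁ + t = 1 + t * a) (h₂ : E₂ + t = 1 + t * b) (d₁ : a * α ∣ E₁) (d₂ : b * β ∣ E₂) : False := by
  have hab : Nat.Coprime a b := Nat.Coprime.coprime_dvd_left (dvd_mul_right a α)
    (Nat.Coprime.coprime_dvd_right (dvd_mul_right b β) hcop)
  have hαβ : Nat.Coprime α β := Nat.Coprime.coprime_dvd_left (dvd_mul_left α a)
    (Nat.Coprime.coprime_dvd_right (dvd_mul_left β b) hcop)
  obtain ⟨u, hu⟩ := d₁
  obtain ⟨v, hv⟩ := d₂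
  have ht1 : 1 ≤ t := by
    rcases Nat.eq_zero_or_pos t with h0 | h0
    · subst h0
      have : a * α * (b * β) = 1 := by simpa using hcard
      have h2 : a ∣ 1 := by
        rw [← this]
        exact Dvd.dvd.mul_right (dvd_mul_right a α) _
      have := Nat.le_of_dvd one_pos h2
      omega
    · exact h0
  -- work in the integers
  have ha' : ((a : ℤ)) ∣ (t : ℤ) - 1 := by
    refine ⟨(t : ℤ) - α * u, ?_⟩
    have : (E₁ : ℤ) + t = 1 + t * a := by exact_mod_cast h₁
    have h3 : (E₁ : ℤ) = a * α * u := by exact_mod_cast hu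
    rw [h3] at this
    linear_combination this
  have hb' : ((b : ℤ)) ∣ (t : ℤ) - 1 := by
    refine ⟨(t : ℤ) - β * v, ?_⟩
    have : (E₂ : ℤ) + t = 1 + t * b := by exact_mod_cast h₂
    have h3 : (E₂ : ℤ) = b * β * v := by exact_mod_cast hv
    rw [h3] at this
    linear_combination this
  have hab' : IsCoprime (a : ℤ) (b : ℤ) := Nat.isCoprime_iff_coprime.2 hab
  obtain ⟨l, hl⟩ := hab'.mul_dvd ha' hb'
  have ha0 : (a : ℤ) ≠ 0 := by
    have : (2 : ℤ) ≤ a := by exact_mod_cast ha
    omega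
  have hb0 : (b : ℤ) ≠ 0 := by
    have : (2 : ℤ) ≤ b := by exact_mod_cast hb
    omega
  have htl : (t : ℤ) = 1 + a * b * l := by linear_combination hl
  have hc' : (a : ℤ) * α * (b * β) + t = 1 + t * (a * b) := by exact_mod_cast hcard
  have hαβl : (α : ℤ) * β = 1 + l * (a * b - 1) := by
    have : (a : ℤ) * b * ((α : ℤ) * β - (1 + l * (a * b - 1))) = 0 := by
      rw [htl] at hc'
      linear_combination hc'
    have hab0 : (a : ℤ) * b ≠ 0 := mul_ne_zero ha0 hb0
    have h5 := (mul_eq_zero.1 this).resolve_left hab0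
    linear_combination h5
  -- `α ∣ l (b - 1)`, `β ∣ l (a - 1)`
  have hαd : (α : ℤ) ∣ l * (b - 1) := by
    have h6 : (E₁ : ℤ) + t = 1 + t * a := by exact_mod_cast h₁
    have h3 : (E₁ : ℤ) = a * α * u := by exact_mod_cast hu
    rw [h3, htl] at h6
    have h7 : (a : ℤ) * ((α : ℤ) * u - (1 + l * b * (a - 1))) = 0 := by
      linear_combination h6
    have h8 := (mul_eq_zero.1 h7).resolve_left ha0
    refine ⟨(β : ℤ) - u, ?_⟩
    linear_combination (-1 : ℤ) * hαβl + h8
  have hβd : (β : ℤ) ∣ l * (a - 1) := by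
    have h6 : (E₂ : ℤ) + t = 1 + t * b := by exact_mod_cast h₂
    have h3 : (E₂ : ℤ) = b * β * v := by exact_mod_cast hv
    rw [h3, htl] at h6
    have h7 : (b : ℤ) * ((β : ℤ) * v - (1 + l * a * (b - 1))) = 0 := by
      linear_combination h6
    have h8 := (mul_eq_zero.1 h7).resolve_left hb0
    refine ⟨(α : ℤ) - v, ?_⟩
    linear_combination (-1 : ℤ) * hαβl + h8
  have hcopZ : IsCoprime (α : ℤ) (β : ℤ) := Nat.isCoprime_iff_coprime.2 hαβ
  have hdvd : (α : ℤ) * β ∣ l * (a - 1) * (b - 1) := by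
    apply hcopZ.mul_dvd
    · have : l * (a - 1) * (b - 1) = (l * (b - 1)) * (a - 1) := by ring
      rw [this]
      exact Dvd.dvd.mul_right hαd _
    · exact Dvd.dvd.mul_right hβd _
  -- `l ≥ 1`
  have hl1 : 1 ≤ l := by
    by_contra hlt
    have hl0 : l ≤ 0 := by omega
    have h2a : (2 : ℤ) ≤ a := by exact_mod_cast ha
    have h2b : (2 : ℤ) ≤ b := by exact_mod_cast hb
    have hpos : (0 : ℤ) ≤ (a : ℤ) * b - 1 := by nlinarith
    have h9 : (α : ℤ) * β ≤ 1 := by
      rw [hαβl]
      nlinarith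
    have hn' : (1 : ℤ) < (α : ℤ) * β := by exact_mod_cast hn
    omega
  have h2a : (2 : ℤ) ≤ a := by exact_mod_cast ha
  have h2b : (2 : ℤ) ≤ b := by exact_mod_cast hb
  have hpos : 0 < l * (a - 1) * (b - 1) := by
    apply mul_pos (mul_pos (by omega) (by omega)) (by omega)
  have hle := Int.le_of_dvd hpos hdvd
  rw [hαβl] at hle
  nlinarith

section count

variable {E : Type u} [Group E] [Fintype E]

open Classical in
/-- Counting through a partition. -/
theorem card_filter_add (Fam : Finset (Subgroup E))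
    (hex : ∀ x : E, x ≠ 1 → ∃ H ∈ Fam, x ∈ H)
    (huniq : ∀ H ∈ Fam, ∀ K ∈ Fam, ∀ x : E, x ≠ 1 → x ∈ H → x ∈ K → H = K)
    (P : E → Prop) (hP : P 1) (m : ℕ)
    (hm : ∀ H ∈ Fam, (Finset.univ.filter (fun x => x ∈ H ∧ P x)).card = m) :
    (Finset.univ.filter P).card + Fam.card = 1 + Fam.card * m := by
  have h1 : (Finset.univ.filter P) = insert 1 (Fam.biUnion fun H =>
      Finset.univ.filter (fun x => x ∈ H ∧ P x ∧ x ≠ 1)) := by
    ext x
    simp only [Finset.mem_filter, Finset.mem_univ, true_and, Finset.mem_insert, Finset.mem_biUnion]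
    constructor
    · intro hx
      by_cases hx1 : x = 1
      · exact Or.inl hx1
      · obtain ⟨H, hH, hxH⟩ := hex x hx1
        exact Or.inr ⟨H, hH, hxH, hx, hx1⟩
    · rintro (rfl | ⟨H, -, -, hx, -⟩)
      · exact hP
      · exact hx
  have h2 : (1 : E) ∉ (Fam.biUnion fun H => Finset.univ.filter (fun x => x ∈ H ∧ P x ∧ x ≠ 1)) := by
    simp
  have h3 : (Fam.biUnion fun H => Finset.univ.filter (fun x => x ∈ H ∧ P x ∧ x ≠ 1)).card
      = ∑ H ∈ Fam, (Finset.univ.filter (fun x => x ∈ H ∧ P x ∧ x ≠ 1)).card := by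
    apply Finset.card_biUnion
    intro H hH K hK hHK
    change Disjoint _ _
    rw [Finset.disjoint_left]
    intro x hx hx'
    simp only [Finset.mem_filter, Finset.mem_univ, true_and] at hx hx'
    exact hHK (huniq H hH K hK x hx.2.2 hx.1 hx'.1)
  have h4 : ∀ H ∈ Fam, (Finset.univ.filter (fun x => x ∈ H ∧ P x ∧ x ≠ 1)).card + 1 = m := by
    intro H hH
    rw [← hm H hH]
    have : (Finset.univ.filter (fun x => x ∈ H ∧ P x)) =
        insert 1 (Finset.univ.filter (fun x => x ∈ H ∧ P x ∧ x ≠ 1)) := by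
      ext x
      simp only [Finset.mem_filter, Finset.mem_univ, true_and, Finset.mem_insert]
      constructor
      · rintro ⟨h1, h2⟩
        by_cases hx1 : x = 1
        · exact Or.inl hx1
        · exact Or.inr ⟨h1, h2, hx1⟩
      · rintro (rfl | ⟨h1, h2, -⟩)
        · exact ⟨H.one_mem, hP⟩
        · exact ⟨h1, h2⟩
    rw [this, Finset.card_insert_of_notMem (by simp)]
  rw [h1, Finset.card_insert_of_notMem h2, h3]
  have h5 : ∑ H ∈ Fam, ((Finset.univ.filter (fun x => x ∈ H ∧ P x ∧ x ≠ 1)).card + 1) = Fam.card * m := by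
    rw [Finset.sum_congr rfl h4, Finset.sum_const, smul_eq_mul]
  rw [Finset.sum_add_distrib] at h5
  simp only [Finset.sum_const, smul_eq_mul, mul_one] at h5
  omega

end count

section comm

/-- A finite group whose elements all satisfy `x ^ A = 1` has order prime to everything prime to `A`. -/
theorem coprime_card_of_pow_eq_one {K : Type*} [Group K] [Finite K] {A b : ℕ} (hA : Nat.Coprime A b)
    (h : ∀ x : K, x ^ A = 1) : Nat.Coprime (Nat.card K) b := by
  apply Nat.Coprime.symm
  apply Nat.coprime_of_dvd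
  intro r hr hrb hrK
  haveI : Fact r.Prime := ⟨hr⟩
  obtain ⟨x, hx⟩ := exists_prime_orderOf_dvd_card' r hrK
  have h1 : r ∣ A := by
    rw [← hx]
    exact orderOf_dvd_of_pow_eq_one (h x)
  have := Nat.dvd_gcd h1 hrb
  rw [hA.gcd_eq_one] at this
  exact hr.one_lt.ne' (Nat.dvd_one.1 this)

/-- Number of solutions of `x ^ A = 1` in a finite abelian group of order `a * b`, `a ∣ A`,
`b` coprime to `A`. -/
theorem card_pow_eq_one_comm {C : Type*} [CommGroup C] [Finite C] {A a b : ℕ} (hA : Nat.Coprime A b)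
    (hcard : Nat.card C = a * b) (ha : a ∣ A) :
    Nat.card {x : C // x ^ A = 1} = a := by
  classical
  let φ : C →* C := powMonoidHom A
  have hab : Nat.Coprime a b := Nat.Coprime.coprime_dvd_left ha hA
  have h1 : Nat.card φ.ker * Nat.card φ.range = a * b := by
    rw [← hcard, Subgroup.card_eq_card_quotient_mul_card_subgroup φ.ker,
      Nat.card_congr (QuotientGroup.quotientKerEquivRange φ).toEquiv, mul_comm]
  have h2 : Nat.Coprime (Nat.card φ.ker) b := by
    apply coprime_card_of_pow_eq_one hA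
    rintro ⟨x, hx⟩
    exact Subtype.ext (MonoidHom.mem_ker.1 hx)
  have h3 : Nat.Coprime (Nat.card φ.range) A := by
    apply (coprime_card_of_pow_eq_one (A := b) hA.symm _)
    rintro ⟨y, x, rfl⟩
    apply Subtype.ext
    change (x ^ A) ^ b = 1
    rw [← pow_mul]
    obtain ⟨c, rfl⟩ := ha
    have h5 : x ^ (a * b) = 1 := by
      rw [← hcard]
      exact pow_card_eq_one'
    rw [show a * c * b = (a * b) * c by ring, pow_mul, h5, one_pow]
  have h4 : Nat.Coprime (Nat.card φ.range) a := Nat.Coprime.coprime_dvd_right ha h3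
  have h6 : Nat.card φ.ker ∣ a := by
    apply h2.dvd_of_dvd_mul_right
    rw [← h1]
    exact dvd_mul_right _ _
  have h7 : Nat.card φ.range ∣ b := by
    apply h4.dvd_of_dvd_mul_left
    rw [← h1]
    exact dvd_mul_left _ _
  have hb0 : 0 < b := by
    rcases Nat.eq_zero_or_pos b with h | h
    · rw [h, mul_zero] at hcard
      exact absurd hcard Nat.card_pos.ne'
    · exact h
  have ha0 : 0 < a := by
    rcases Nat.eq_zero_or_pos a with h | h
    · rw [h, zero_mul] at hcard
      exact absurd hcard Nat.card_pos.ne'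
    · exact h
  have h8 : Nat.card φ.ker = a := by
    have hl1 := Nat.le_of_dvd ha0 h6
    have hl2 := Nat.le_of_dvd hb0 h7
    by_contra hne
    have hlt : Nat.card φ.ker < a := lt_of_le_of_ne hl1 hne
    have : Nat.card φ.ker * Nat.card φ.range < a * b := by
      calc Nat.card φ.ker * Nat.card φ.range ≤ Nat.card φ.ker * b := Nat.mul_le_mul_left _ hl2
        _ < a * b := Nat.mul_lt_mul_of_pos_right hlt hb0
    omega
  rw [← h8]
  apply Nat.card_congr
  exact Equiv.subtypeEquivRight (fun x => by simp [φ, MonoidHom.mem_ker])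

end comm

section main

variable {E : Type u} [Group E] [Finite E]

/-- Main lemma: if `E` is partitioned by at least two abelian subgroups of the same order,
`E` is a `p`-group. -/
theorem isPGroup_of_partition (Fam : Set (Subgroup E)) (h : ℕ)
    (hex : ∀ x : E, x ≠ 1 → ∃ H ∈ Fam, x ∈ H)
    (huniq : ∀ H ∈ Fam, ∀ K ∈ Fam, ∀ x : E, x ≠ 1 → x ∈ H → x ∈ K → H = K)
    (hcomm : ∀ H ∈ Fam, ∀ x ∈ H, ∀ y ∈ H, x * y = y * x)
    (hcard : ∀ H ∈ Fam, Nat.card H = h) (hlt : h < Nat.card E) :
    ∃ p : ℕ, p.Prime ∧ IsPGroup p E := by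
  classical
  haveI := Fintype.ofFinite E
  by_contra hno
  push Not at hno
  -- choose a prime of `E`
  have hE1 : Nat.card E ≠ 1 := by
    intro h1
    apply hno 2 Nat.prime_two
    rw [IsPGroup.iff_card]
    exact ⟨0, by rw [h1, pow_zero]⟩
  obtain ⟨p, hp, hpE⟩ := Nat.exists_prime_and_dvd hE1
  haveI : Fact p.Prime := ⟨hp⟩
  have hEpos : Nat.card E ≠ 0 := Nat.card_pos.ne'
  obtain ⟨e, B, hpB, hdec⟩ := Nat.exists_eq_pow_mul_and_not_dvd hEpos p hp.ne_one
  set A := p ^ e with hA
  have hcopAB : Nat.Coprime A B := Nat.Coprime.pow_left _ ((Nat.Prime.coprime_iff_not_dvd hp).2 hpB)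
  have hB1 : B ≠ 1 := by
    intro h1
    apply hno p hp
    rw [IsPGroup.iff_card]
    exact ⟨e, by rw [hdec, h1, mul_one]⟩
  obtain ⟨r, hr, hrB⟩ := Nat.exists_prime_and_dvd hB1
  haveI : Fact r.Prime := ⟨hr⟩
  have hrE : r ∣ Nat.card E := by rw [hdec]; exact Dvd.dvd.mul_left hrB _
  have hrA : Nat.Coprime A r := Nat.Coprime.coprime_dvd_right hrB hcopAB
  -- `p` and `r` divide `h`
  obtain ⟨x0, hx0⟩ := exists_prime_orderOf_dvd_card' p hpE
  obtain ⟨y0, hy0⟩ := exists_prime_orderOf_dvd_card' r hrE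
  have hx01 : x0 ≠ 1 := by
    rintro rfl
    rw [orderOf_one] at hx0
    exact hp.one_lt.ne hx0
  have hy01 : y0 ≠ 1 := by
    rintro rfl
    rw [orderOf_one] at hy0
    exact hr.one_lt.ne hy0
  obtain ⟨H0, hH0, hxH0⟩ := hex x0 hx01
  obtain ⟨H1, hH1, hyH1⟩ := hex y0 hy01
  have hpd : p ∣ h := by
    rw [← hcard H0 hH0, ← hx0]
    have := Subgroup.orderOf_dvd_natCard H0 hxH0
    exact this
  have hrd : r ∣ h := by
    rw [← hcard H1 hH1, ← hy0]
    exact Subgroup.orderOf_dvd_natCard H1 hyH1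
  -- split `h`
  have hh0 : h ≠ 0 := by
    rw [← hcard H0 hH0]
    exact Nat.card_pos.ne'
  have hhdvd : h ∣ A * B := by
    rw [← hdec, ← hcard H0 hH0]
    exact Subgroup.card_subgroup_dvd_card H0
  obtain ⟨a, b, ha, hb, hab⟩ := exists_dvd_and_dvd_of_dvd_mul hhdvd
  have ha2 : 2 ≤ a := by
    have h1 : p ∣ a := by
      have : p ∣ a * b := hab ▸ hpd
      rcases (Nat.Prime.dvd_mul hp).1 this with h2 | h2
      · exact h2
      · exact absurd (h2.trans hb) hpB
    have h0 : a ≠ 0 := by
      rintro rfl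
      simp at hab
      exact hh0 hab
    have := Nat.le_of_dvd (Nat.pos_of_ne_zero h0) h1
    have := hp.two_le
    omega
  have hb2 : 2 ≤ b := by
    have h1 : r ∣ b := by
      have : r ∣ a * b := hab ▸ hrd
      rcases (Nat.Prime.dvd_mul hr).1 this with h2 | h2
      · exfalso
        have h3 : r ∣ A := h2.trans ha
        have h4 := Nat.dvd_gcd h3 (dvd_refl r)
        rw [hrA.gcd_eq_one] at h4
        exact hr.one_lt.ne' (Nat.dvd_one.1 h4)
      · exact h2
    have h0 : b ≠ 0 := by
      rintro rfl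
      simp at hab
      exact hh0 hab
    have := Nat.le_of_dvd (Nat.pos_of_ne_zero h0) h1
    have := hr.two_le
    omega
  obtain ⟨α, hα⟩ := ha
  obtain ⟨β, hβ⟩ := hb
  -- counts in each component
  have hconv : ∀ (H : Subgroup E) (M : ℕ), (Finset.univ.filter (fun x : E => x ∈ H ∧ x ^ M = 1)).card
      = Nat.card {x : H // x ^ M = 1} := by
    intro H M
    rw [← Fintype.card_subtype, ← Nat.card_eq_fintype_card]
    apply Nat.card_congr
    exact
      { toFun := fun x => ⟨⟨x.1, x.2.1⟩, Subtype.ext (by simpa using x.2.2)⟩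
        invFun := fun x => ⟨x.1.1, x.1.2, by simpa using congrArg Subtype.val x.2⟩
        left_inv := fun x => rfl
        right_inv := fun x => rfl }
  have hcountA : ∀ H ∈ Fam, (Finset.univ.filter (fun x : E => x ∈ H ∧ x ^ A = 1)).card = a := by
    intro H hH
    letI : CommGroup H := { (inferInstance : Group H) with
      mul_comm := fun u v => Subtype.ext (hcomm H hH u u.2 v v.2) }
    rw [hconv]
    exact card_pow_eq_one_comm (C := H) (A := A) (a := a) (b := b)
      (Nat.Coprime.coprime_dvd_right ⟨β, hβ⟩ hcopAB) (by rw [hcard H hH, hab]) ⟨α, hα⟩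
  have hcountB : ∀ H ∈ Fam, (Finset.univ.filter (fun x : E => x ∈ H ∧ x ^ B = 1)).card = b := by
    intro H hH
    letI : CommGroup H := { (inferInstance : Group H) with
      mul_comm := fun u v => Subtype.ext (hcomm H hH u u.2 v v.2) }
    rw [hconv]
    exact card_pow_eq_one_comm (C := H) (A := B) (a := b) (b := a)
      (Nat.Coprime.coprime_dvd_right ⟨α, hα⟩ hcopAB.symm) (by rw [hcard H hH, hab, mul_comm]) ⟨β, hβ⟩
  have hcountAll : ∀ H ∈ Fam, (Finset.univ.filter (fun x : E => x ∈ H ∧ x ^ (A * B) = 1)).card = a * b := by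
    intro H hH
    rw [hconv, ← hab, ← hcard H hH]
    apply Nat.card_congr
    refine Equiv.subtypeUnivEquiv (fun x => ?_)
    apply Subtype.ext
    have h1 : (x : E) ^ (A * B) = 1 := by
      rw [← hdec]
      exact pow_card_eq_one'
    simpa using h1
  set F : Finset (Subgroup E) := Fam.toFinite.toFinset with hF
  have hmemF : ∀ H, H ∈ F ↔ H ∈ Fam := fun H => Set.Finite.mem_toFinset _
  have hexF : ∀ x : E, x ≠ 1 → ∃ H ∈ F, x ∈ H := by
    intro x hx
    obtain ⟨H, hH, hxH⟩ := hex x hx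
    exact ⟨H, (hmemF H).2 hH, hxH⟩
  have huF : ∀ H ∈ F, ∀ K ∈ F, ∀ x : E, x ≠ 1 → x ∈ H → x ∈ K → H = K := by
    intro H hH K hK x hx hxH hxK
    exact huniq H ((hmemF H).1 hH) K ((hmemF K).1 hK) x hx hxH hxK
  have c1 := card_filter_add F hexF huF (fun x => x ^ A = 1) (one_pow _) a
    (fun H hH => hcountA H ((hmemF H).1 hH))
  have c2 := card_filter_add F hexF huF (fun x => x ^ B = 1) (one_pow _) b
    (fun H hH => hcountB H ((hmemF H).1 hH))
  have c3 := card_filter_add F hexF huF (fun x => x ^ (A * B) = 1) (one_pow _) (a * b)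
    (fun H hH => hcountAll H ((hmemF H).1 hH))
  have hall : (Finset.univ.filter (fun x : E => x ^ (A * B) = 1)).card = A * B := by
    rw [Finset.filter_true_of_mem, Finset.card_univ, ← Nat.card_eq_fintype_card, hdec]
    intro x _
    rw [← hdec]
    exact pow_card_eq_one'
  rw [hall] at c3
  have hconv2 : ∀ M : ℕ, (Finset.univ.filter (fun x : E => x ^ M = 1)).card = Nat.card {g : E // g ^ M = 1} := by
    intro M
    rw [← Fintype.card_subtype, ← Nat.card_eq_fintype_card]
  have d1 : A ∣ (Finset.univ.filter (fun x : E => x ^ A = 1)).card := by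
    rw [hconv2]
    exact Cfsg.Agent.S3993.result A (by rw [hdec]; exact dvd_mul_right _ _)
  have d2 : B ∣ (Finset.univ.filter (fun x : E => x ^ B = 1)).card := by
    rw [hconv2]
    exact Cfsg.Agent.S3993.result B (by rw [hdec]; exact dvd_mul_left _ _)
  have hn : 1 < α * β := by
    have h1 : a * b < (a * α) * (b * β) := by
      rw [← hab, ← hα, ← hβ, ← hdec]
      exact hlt
    have hab0 : 0 < a * b := by positivity
    have h2 : a * b * 1 < a * b * (α * β) := by
      calc a * b * 1 = a * b := by ring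
        _ < (a * α) * (b * β) := h1
        _ = a * b * (α * β) := by ring
    exact Nat.lt_of_mul_lt_mul_left h2
  have hcop' : Nat.Coprime (a * α) (b * β) := by rw [← hα, ← hβ]; exact hcopAB
  have d1' : a * α ∣ (Finset.univ.filter (fun x : E => x ^ A = 1)).card := by rw [← hα]; exact d1
  have d2' : b * β ∣ (Finset.univ.filter (fun x : E => x ^ B = 1)).card := by rw [← hβ]; exact d2
  have hAB' : a * α * (b * β) + F.card = 1 + F.card * (a * b) := by
    rw [← hα, ← hβ]
    exact c3
  exact arith ha2 hb2 hcop' hn hAB' c1 c2 d1' d2'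

end main

end Cfsg.Agent.Lib.ClassSize.Partition
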