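import Mathlib
import Cfsg.Agent.Lib.ClassSize.Basic
import Cfsg.Agent.Lib.ClassSize.Partition

/-!
# Groups with two class sizes (Ito)
-/

set_option autoImplicit false

namespace Cfsg.Agent.Lib.ClassSize.TwoSize

open Subgroup Cfsg.Agent.Lib.ClassSize.Basic

universe u

variable {G : Type u} [Group G] [Finite G]

/-- Index of the image in the central quotient. -/
theorem index_map_mk_center (x : G) :
    ((cent x).map (QuotientGroup.mk' (center G))).index = (cent x).index := by
  rw [Subgroup.index_map, QuotientGroup.range_mk', Subgroup.index_top, mul_one, QuotientGroup.ker_mk',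
    sup_eq_left.2 (center_le_cent x)]

theorem mk_eq_one_iff {x : G} : QuotientGroup.mk' (center G) x = 1 ↔ x ∈ center G := by
  rw [QuotientGroup.mk'_apply, QuotientGroup.eq_one_iff]

/-- An element whose image has order divisible by `r`: an `r`-element outside the kernel. -/
theorem exists_primary_of_dvd {r : ℕ} (hr : r.Prime) (H : Subgroup G)
    (hd : r ∣ Nat.card (H.map (QuotientGroup.mk' (center G)))) :
    ∃ w ∈ H, w ∉ center G ∧ ∃ i : ℕ, orderOf w = r ^ i := by
  haveI : Fact r.Prime := ⟨hr⟩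
  obtain ⟨c, hc⟩ := exists_prime_orderOf_dvd_card' r hd
  obtain ⟨u, huH, huc⟩ := c.2
  have hc' : orderOf (QuotientGroup.mk' (center G) u) = r := by
    rw [huc, Subgroup.orderOf_coe]
    exact hc
  obtain ⟨i, m, hrm, hdec⟩ := Nat.exists_eq_pow_mul_and_not_dvd (orderOf_pos u).ne' r hr.ne_one
  have hm0 : m ≠ 0 := by
    rintro rfl
    simp at hrm
  refine ⟨u ^ m, H.pow_mem huH m, ?_, i, ?_⟩
  · intro hmem
    have h1 : (QuotientGroup.mk' (center G) u) ^ m = 1 := by
      rw [← map_pow, mk_eq_one_iff]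
      exact hmem
    have h2 := orderOf_dvd_of_pow_eq_one h1
    rw [hc'] at h2
    exact hrm h2
  · rw [orderOf_pow_of_dvd hm0 (by rw [hdec]; exact dvd_mul_left _ _), hdec, Nat.mul_div_cancel _ (Nat.pos_of_ne_zero hm0)]

section hyp

variable {n : ℕ} (h : ∀ x : G, (cent x).index = 1 ∨ (cent x).index = n)

include h

theorem index_eq {x : G} (hx : x ∉ center G) : (cent x).index = n :=
  (h x).resolve_left (fun h1 => hx (index_cent_eq_one_iff.1 h1))

theorem cent_eq_of_le {x y : G} (hx : x ∉ center G) (hy : y ∉ center G) (hle : cent x ≤ cent y) :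
    cent x = cent y :=
  eq_of_le_of_index_eq hle (by rw [index_eq h hx, index_eq h hy])

theorem cent_eq_of_coprime {x y : G} (hx : x ∉ center G) (hy : y ∉ center G) (hcomm : Commute x y)
    (hcop : Nat.Coprime (orderOf x) (orderOf y)) : cent x = cent y := by
  have hxy : x * y ∉ center G := by
    intro hmem
    obtain ⟨m, hm⟩ := exists_pow_eq_self_of_coprime hcop.symm
    have h2 : (x * y) ^ orderOf y = x ^ orderOf y := by
      rw [hcomm.mul_pow, pow_orderOf_eq_one, mul_one]
    have h3 : ((x * y) ^ orderOf y) ^ m = x := by rw [h2, hm]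
    exact hx (h3 ▸ (center G).pow_mem ((center G).pow_mem hmem _) _)
  have h1 := cent_eq_of_le h hxy hx (cent_mul_le_left hcomm hcop)
  have h2 := cent_eq_of_le h hxy hy (cent_mul_le_right hcomm hcop)
  rw [← h1, h2]

/-- If the central quotient is not a `p`-group, all proper centralizers are abelian. -/
theorem cent_comm_of_not_pgroup (hq : ¬ ∃ p : ℕ, p.Prime ∧ IsPGroup p (G ⧸ center G)) {x : G}
    (hx : x ∉ center G) : ∀ a ∈ cent x, ∀ b ∈ cent x, a * b = b * a := by
  classical
  obtain ⟨k, hk, q, e, hq', hoq⟩ := exists_primary_pow_notMem hx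
  set x₀ := x ^ k with hx₀
  have hCx : cent x = cent x₀ := cent_eq_of_le h hx hk (cent_le_of_pow x k)
  -- a second prime
  obtain ⟨r, hr, hrd, hrq⟩ : ∃ r : ℕ, r.Prime ∧ r ∣ Nat.card (G ⧸ center G) ∧ r ≠ q := by
    by_contra hno
    push Not at hno
    apply hq
    refine ⟨q, hq', ?_⟩
    haveI : Fact q.Prime := ⟨hq'⟩
    rw [IsPGroup.iff_card]
    exact ⟨_, Nat.eq_prime_pow_of_unique_prime_dvd Nat.card_pos.ne' (fun {d} hd hdd => hno d hd hdd)⟩
  -- a noncentral `r`-element of the whole group
  obtain ⟨y, -, hy, j, hyo⟩ := exists_primary_of_dvd (r := r) hr (⊤ : Subgroup G) (by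
    rw [← MonoidHom.range_eq_map, QuotientGroup.range_mk']
    simpa using hrd)
  -- `r` divides the order of the image of `cent x₀`
  have hcardeq : ∀ z : G, z ∉ center G →
      Nat.card ((cent z).map (QuotientGroup.mk' (center G))) * n = Nat.card (G ⧸ center G) := by
    intro z hz
    rw [← Subgroup.card_mul_index ((cent z).map (QuotientGroup.mk' (center G))),
      index_map_mk_center, index_eq h hz]
  have hnpos : 0 < n := by
    rw [← index_eq h hx]
    exact Nat.pos_of_ne_zero Subgroup.index_ne_zero_of_finite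
  have hcard2 : Nat.card ((cent y).map (QuotientGroup.mk' (center G))) =
      Nat.card ((cent x₀).map (QuotientGroup.mk' (center G))) :=
    Nat.eq_of_mul_eq_mul_right hnpos ((hcardeq y hy).trans (hcardeq x₀ hk).symm)
  have hrd2 : r ∣ Nat.card ((cent x₀).map (QuotientGroup.mk' (center G))) := by
    rw [← hcard2]
    have h1 : QuotientGroup.mk' (center G) y ∈ (cent y).map (QuotientGroup.mk' (center G)) :=
      Subgroup.mem_map_of_mem _ (mem_cent_self y)
    have h2 := Subgroup.orderOf_dvd_natCard _ h1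
    have h3 : QuotientGroup.mk' (center G) y ≠ 1 := fun h4 => hy (mk_eq_one_iff.1 h4)
    have h4 : orderOf (QuotientGroup.mk' (center G) y) ∣ r ^ j := by
      rw [← hyo]
      exact orderOf_map_dvd _ _
    obtain ⟨t, -, ht⟩ := (Nat.dvd_prime_pow hr).1 h4
    have ht0 : t ≠ 0 := by
      rintro rfl
      rw [pow_zero] at ht
      exact h3 (orderOf_eq_one_iff.1 ht)
    refine dvd_trans ?_ h2
    rw [ht]
    exact dvd_pow_self r ht0
  obtain ⟨u, huC, hu, i, huo⟩ := exists_primary_of_dvd hr (cent x₀) hrd2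
  have hcopqr : Nat.Coprime q r := (Nat.coprime_primes hq' hr).2 (Ne.symm hrq)
  have hCu : cent x₀ = cent u := cent_eq_of_coprime h hk hu (mem_cent_iff.1 huC) (by
    rw [hoq, huo]
    exact Nat.Coprime.pow _ _ hcopqr)
  -- every element of `C` is central in `C`
  have key : ∀ a : G, a ∈ cent x₀ → cent x₀ ≤ cent a := by
    intro a
    refine primary_induction (M := fun a => a ∈ cent x₀ → cent x₀ ≤ cent a) ?_ ?_ ?_ a
    · rintro a ⟨s, f, hs, ho⟩ haC
      by_cases haZ : a ∈ center G
      · intro w _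
        exact mem_cent_iff.2 ((Subgroup.mem_center_iff.1 haZ w).symm)
      by_cases hsq : s = q
      · -- coprime to `u`
        have haC' : a ∈ cent u := hCu ▸ haC
        have : cent u = cent a := cent_eq_of_coprime h hu haZ (mem_cent_iff.1 haC') (by
          rw [huo, ho, hsq]
          exact Nat.Coprime.pow _ _ hcopqr.symm)
        rw [hCu, this]
      · have : cent x₀ = cent a := cent_eq_of_coprime h hk haZ (mem_cent_iff.1 haC) (by
          rw [hoq, ho]
          exact Nat.Coprime.pow _ _ ((Nat.coprime_primes hq' hs).2 (Ne.symm hsq)))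
        rw [this]
    · intro _ w _
      exact mem_cent_iff.2 (by simp)
    · intro a b hab hc ha hb hmem
      have ha' : a ∈ cent x₀ := by
        obtain ⟨m, hm⟩ := exists_pow_eq_self_of_coprime hc.symm
        have h2 : (a * b) ^ orderOf b = a ^ orderOf b := by
          rw [hab.mul_pow, pow_orderOf_eq_one, mul_one]
        have h3 : ((a * b) ^ orderOf b) ^ m = a := by rw [h2, hm]
        have h4 := (cent x₀).pow_mem ((cent x₀).pow_mem hmem (orderOf b)) m
        rwa [h3] at h4
      have hb' : b ∈ cent x₀ := by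
        have h5 : a⁻¹ * (a * b) = b := by group
        have h6 := (cent x₀).mul_mem ((cent x₀).inv_mem ha') hmem
        rwa [h5] at h6
      exact le_trans (le_inf (ha ha') (hb hb')) (inf_cent_le_cent_mul a b)
  intro a ha b hb
  rw [hCx] at ha hb
  exact (mem_cent_iff.1 (key a ha hb))

/-- **Ito**: two class sizes: the central quotient is a `p`-group. -/
theorem exists_isPGroup_quotient (hn : 1 < n) :
    ∃ p : ℕ, p.Prime ∧ IsPGroup p (G ⧸ center G) := by
  classical
  by_contra hq
  let π := QuotientGroup.mk' (center G)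
  let Fam : Set (Subgroup (G ⧸ center G)) := {K | ∃ x : G, x ∉ center G ∧ K = (cent x).map π}
  have hcomm := fun {x : G} (hx : x ∉ center G) => cent_comm_of_not_pgroup h hq hx
  have hcardeq : ∀ K ∈ Fam, Nat.card K * n = Nat.card (G ⧸ center G) := by
    rintro K ⟨x, hx, rfl⟩
    rw [← Subgroup.card_mul_index ((cent x).map π), index_map_mk_center, index_eq h hx]
  obtain ⟨h₀, hh₀⟩ : ∃ h₀ : ℕ, ∀ K ∈ Fam, Nat.card K = h₀ := by
    refine ⟨Nat.card (G ⧸ center G) / n, fun K hK => ?_⟩
    rw [← hcardeq K hK, Nat.mul_div_cancel _ (by omega)]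
  apply hq
  apply Partition.isPGroup_of_partition Fam h₀
  · -- covering
    intro c hc
    obtain ⟨x, rfl⟩ := QuotientGroup.mk'_surjective (center G) c
    have hx : x ∉ center G := fun hm => hc (mk_eq_one_iff.2 hm)
    exact ⟨_, ⟨x, hx, rfl⟩, Subgroup.mem_map_of_mem _ (mem_cent_self x)⟩
  · rintro _ ⟨x, hx, rfl⟩ _ ⟨y, hy, rfl⟩ c hc hcx hcy
    obtain ⟨w, hw, rfl⟩ := hcx
    obtain ⟨w', hw', hww⟩ := hcy
    have hwZ : w ∉ center G := fun hm => hc (mk_eq_one_iff.2 hm)
    have hz : w'⁻¹ * w ∈ center G := by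
      have : π (w'⁻¹ * w) = 1 := by
        rw [map_mul, map_inv, hww]
        simp
      exact mk_eq_one_iff.1 this
    have hwy : w ∈ cent y := by
      have h1 := (cent y).mul_mem hw' (center_le_cent y hz)
      have h2 : w' * (w'⁻¹ * w) = w := by group
      rwa [h2] at h1
    have h1 : cent x = cent w := cent_eq_of_le h hx hwZ (fun a ha => mem_cent_iff.2
      (hcomm hx w hw a ha))
    have h2 : cent y = cent w := cent_eq_of_le h hy hwZ (fun a ha => mem_cent_iff.2
      (hcomm hy w hwy a ha))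
    rw [h1, h2]
  · rintro _ ⟨x, hx, rfl⟩ _ ⟨a, ha, rfl⟩ _ ⟨b, hb, rfl⟩
    rw [← map_mul, ← map_mul, hcomm hx a ha b hb]
  · exact hh₀
  · -- `h₀ < |E|`
    by_cases hFam : ∃ K, K ∈ Fam
    · obtain ⟨K, hK⟩ := hFam
      rw [← hcardeq K hK, hh₀ K hK]
      have hpos : 0 < h₀ := by
        rw [← hh₀ K hK]
        exact Nat.card_pos
      nlinarith
    · -- all elements central: impossible
      exfalso
      apply hq
      refine ⟨2, Nat.prime_two, ?_⟩
      rw [IsPGroup.iff_card]
      refine ⟨0, ?_⟩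
      rw [pow_zero, Nat.card_eq_one_iff_unique]
      refine ⟨⟨fun a b => ?_⟩, ⟨1⟩⟩
      have hall : ∀ c : G ⧸ center G, c = 1 := by
        intro c
        obtain ⟨x, rfl⟩ := QuotientGroup.mk'_surjective (center G) c
        by_contra hne
        have hx : x ∉ center G := fun hm => hne (mk_eq_one_iff.2 hm)
        exact hFam ⟨_, x, hx, rfl⟩
      rw [hall a, hall b]

end hyp

/-- The exponent statement in the `p`-quotient case. -/
theorem exists_abelian_normal_of_pgroup {n p : ℕ} (hp : p.Prime)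
    (h : ∀ x : G, (cent x).index = 1 ∨ (cent x).index = n)
    (hP : IsPGroup p (G ⧸ center G)) :
    ∃ K : Subgroup G, K.Normal ∧ (∀ a ∈ K, ∀ b ∈ K, a * b = b * a) ∧ ∀ w : G, w ^ p ∈ K := by
  classical
  haveI : Fact p.Prime := ⟨hp⟩
  by_cases hall : ∀ w : G, w ^ p ∈ center G
  · refine ⟨center G, inferInstance, ?_, hall⟩
    intro a ha b _
    exact (Subgroup.mem_center_iff.1 ha b).symm
  push Not at hall
  obtain ⟨y₀, hy₀⟩ := hall
  have hy₀' : y₀ ∉ center G := mem_center_of_pow_notMem hy₀
  have hCy : cent y₀ = cent (y₀ ^ p) := cent_eq_of_le h hy₀' hy₀ (cent_le_of_pow _ _)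
  -- central translations do not change centralizers
  have hcentmul : ∀ (z a : G), z ∈ center G → cent (z * a) = cent a := by
    intro z a hz
    ext u
    have hzu : Commute z u := (Subgroup.mem_center_iff.1 hz u).symm
    rw [mem_cent_iff, mem_cent_iff]
    constructor
    · intro h1
      have c1 : Commute (z * a) u := h1
      have h3 : a = z⁻¹ * (z * a) := by group
      have c2 : Commute a u := by
        rw [h3]
        exact hzu.inv_left.mul_left c1
      exact c2.eq
    · intro h1
      exact (hzu.mul_left (show Commute a u from h1)).eq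
  -- step 1: elements with `b ^ p` central in `cent y₀`
  have step1 : ∀ b ∈ cent y₀, b ^ p ∈ center G → cent y₀ ≤ cent b := by
    intro b hb hbp
    have hcomm : Commute y₀ b := mem_cent_iff.1 hb
    have hpow : (y₀ * b) ^ p = b ^ p * y₀ ^ p := by
      rw [hcomm.mul_pow, (Subgroup.mem_center_iff.1 hbp (y₀ ^ p))]
    have hnot : (y₀ * b) ^ p ∉ center G := by
      rw [hpow]
      intro hm
      apply hy₀
      have := (center G).mul_mem ((center G).inv_mem hbp) hm
      have h2 : (b ^ p)⁻¹ * (b ^ p * y₀ ^ p) = y₀ ^ p := by group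
      rwa [h2] at this
    have hnot' : y₀ * b ∉ center G := mem_center_of_pow_notMem hnot
    have h1 : cent (y₀ * b) ≤ cent y₀ := by
      have h2 := cent_le_of_pow (y₀ * b) p
      rw [hpow, hcentmul _ _ hbp, ← hCy] at h2
      exact h2
    have h2 : cent (y₀ * b) = cent y₀ := cent_eq_of_le h hnot' hy₀' h1
    intro s hs
    have hs1 : s ∈ cent (y₀ * b) := h2 ▸ hs
    have c1 : Commute (y₀ * b) s := mem_cent_iff.1 hs1
    have c2 : Commute y₀ s := mem_cent_iff.1 hs
    have c3 : Commute b s := by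
      have h3 : b = y₀⁻¹ * (y₀ * b) := by group
      rw [h3]
      exact c2.inv_left.mul_left c1
    exact mem_cent_iff.2 c3.eq
  -- step 2: all elements of `cent y₀`
  have step2 : ∀ b ∈ cent y₀, cent y₀ ≤ cent b := by
    intro b hb
    by_cases hbZ : b ∈ center G
    · intro w _
      exact mem_cent_iff.2 ((Subgroup.mem_center_iff.1 hbZ w).symm)
    obtain ⟨j, hj⟩ := (IsPGroup.iff_orderOf.1 hP) (QuotientGroup.mk' (center G) b)
    have hex : ∃ i : ℕ, b ^ p ^ i ∈ center G := by
      refine ⟨j, mk_eq_one_iff.1 ?_⟩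
      rw [map_pow, ← hj, pow_orderOf_eq_one]
    obtain ⟨i, hi⟩ : ∃ i : ℕ, b ^ p ^ (i + 1) ∈ center G ∧ b ^ p ^ i ∉ center G := by
      have hN := Nat.find_spec hex
      have hN0 : Nat.find hex ≠ 0 := by
        intro h0
        rw [h0, pow_zero, pow_one] at hN
        exact hbZ hN
      obtain ⟨i, hi⟩ := Nat.exists_eq_succ_of_ne_zero hN0
      refine ⟨i, ?_, ?_⟩
      · rw [hi] at hN
        exact hN
      · exact Nat.find_min hex (by omega)
    set b' := b ^ p ^ i with hb'
    have hb'C : b' ∈ cent y₀ := (cent y₀).pow_mem hb _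
    have hb'p : b' ^ p ∈ center G := by
      rw [hb', ← pow_mul, ← pow_succ]
      exact hi.1
    have h1 : cent b = cent b' := cent_eq_of_le h hbZ hi.2 (cent_le_of_pow _ _)
    rw [h1]
    exact step1 b' hb'C hb'p
  -- the element `x`
  have hnontriv : Nontrivial (G ⧸ center G) := by
    refine ⟨QuotientGroup.mk' (center G) y₀, 1, fun h1 => hy₀' (mk_eq_one_iff.1 h1)⟩
  haveI := hP.center_nontrivial
  obtain ⟨c, hc⟩ := exists_ne (1 : center (G ⧸ center G))
  obtain ⟨j, hj⟩ := (IsPGroup.iff_orderOf.1 hP) (c : G ⧸ center G)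
  have hc1 : (c : G ⧸ center G) ≠ 1 := fun h1 => hc (Subtype.ext h1)
  have hj0 : j ≠ 0 := by
    rintro rfl
    rw [pow_zero] at hj
    exact hc1 (orderOf_eq_one_iff.1 hj)
  obtain ⟨j', rfl⟩ := Nat.exists_eq_succ_of_ne_zero hj0
  set c' : G ⧸ center G := (c : G ⧸ center G) ^ p ^ j' with hc'
  have hc'ne : c' ≠ 1 := by
    intro h1
    have := orderOf_dvd_of_pow_eq_one h1
    rw [hj] at this
    have h2 := (Nat.pow_dvd_pow_iff_le_right hp.one_lt).1 this
    omega
  have hc'p : c' ^ p = 1 := by
    rw [hc', ← pow_mul, ← pow_succ, ← hj, pow_orderOf_eq_one]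
  have hc'Z : c' ∈ center (G ⧸ center G) := (center _).pow_mem c.2 _
  obtain ⟨x, hxc⟩ := QuotientGroup.mk'_surjective (center G) c'
  have hxZ : x ∉ center G := by
    intro hm
    apply hc'ne
    rw [← hxc]
    exact mk_eq_one_iff.2 hm
  have hxp : x ^ p ∈ center G := by
    apply mk_eq_one_iff.1
    rw [map_pow, hxc, hc'p]
  have hcomm2 : ∀ g : G, g⁻¹ * x * g * x⁻¹ ∈ center G := by
    intro g
    apply mk_eq_one_iff.1
    simp only [map_mul, map_inv, hxc]
    have := Subgroup.mem_center_iff.1 hc'Z (QuotientGroup.mk' (center G) g)⁻¹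
    rw [this]
    simp
  -- powers
  have hpow : ∀ w : G, w ^ p ∈ cent x := by
    intro w
    set ζ := w⁻¹ * x * w * x⁻¹ with hζ
    have hζZ : ζ ∈ center G := hcomm2 w
    have hconj : w⁻¹ * x * w = ζ * x := by rw [hζ]; group
    have hk : ∀ k : ℕ, (w ^ k)⁻¹ * x * w ^ k = ζ ^ k * x := by
      intro k
      induction k with
      | zero => simp
      | succ k ih =>
        have h1 : (w ^ (k + 1))⁻¹ * x * w ^ (k + 1) = w⁻¹ * ((w ^ k)⁻¹ * x * w ^ k) * w := by
          rw [pow_succ]
          group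
        rw [h1, ih]
        have h2 : w⁻¹ * (ζ ^ k * x) * w = ζ ^ k * (w⁻¹ * x * w) := by
          have h3 := Subgroup.mem_center_iff.1 ((center G).pow_mem hζZ k) w⁻¹
          rw [← mul_assoc w⁻¹, h3]
          group
        rw [h2, hconj, pow_succ]
        group
    have hζp : ζ ^ p = 1 := by
      have h1 : (w⁻¹ * x * w) ^ p = x ^ p := by
        rw [show (w⁻¹ * x * w) = w⁻¹ * x * w⁻¹⁻¹ by group, conj_pow]
        have h2 := Subgroup.mem_center_iff.1 hxp w⁻¹
        rw [h2]
        group
      rw [hconj] at h1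
      have hcomm3 : Commute ζ x := (Subgroup.mem_center_iff.1 hζZ x).symm
      rw [hcomm3.mul_pow] at h1
      exact mul_right_cancel (h1.trans (one_mul _).symm)
    have h1 := hk p
    rw [hζp, one_mul] at h1
    apply mem_cent_iff.2
    have : x * w ^ p = w ^ p * ((w ^ p)⁻¹ * x * w ^ p) := by group
    rw [this, h1]
  have hxy : x ∈ cent y₀ := by
    rw [hCy, mem_cent_comm]
    exact hpow y₀
  have hCC : cent y₀ = cent x := cent_eq_of_le h hy₀' hxZ (step2 x hxy)
  have hcentconj : ∀ g : G, cent (g * x * g⁻¹) = cent x := by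
    intro g
    have h1 : g * x * g⁻¹ = (g⁻¹⁻¹ * x * g⁻¹ * x⁻¹) * x := by group
    rw [h1, hcentmul _ _ (hcomm2 g⁻¹)]
  refine ⟨cent x, ⟨fun s hs g => ?_⟩, ?_, hpow⟩
  · have h2 : g * s * g⁻¹ ∈ cent (g * x * g⁻¹) := by
      rw [conj_mem_cent_iff]
      have : g⁻¹ * (g * s * g⁻¹) * g = s := by group
      rw [this]
      exact hs
    rwa [hcentconj] at h2
  · intro a ha b hb
    rw [← hCC] at ha hb
    exact (mem_cent_iff.1 (step2 a ha hb))

end Cfsg.Agent.Lib.ClassSize.TwoSize
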