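import Mathlib
import Cfsg.Agent.Lib.ClassSize.Coprime
import Cfsg.Agent.Lib.ClassSize.TwoSize

/-!
# Class sizes `1, n, m, nm` with `n, m` coprime (Camina): first part

Noncentral elements of class sizes `n` and `m` commute.
-/

set_option autoImplicit false
set_option linter.unusedSectionVars false
set_option linter.style.longLine false
set_option linter.style.haveILetI false

namespace Cfsg.Agent.Lib.ClassSize.Camina

open Subgroup Cfsg.Agent.Lib.ClassSize.Basic Cfsg.Agent.Lib.ClassSize.Coprime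

universe u

/-- The class sizes are `1, n, m, nm`, with `n, m > 1` coprime. -/
structure Hyp (G : Type u) [Group G] (n m : ℕ) : Prop where
  hn : 1 < n
  hm : 1 < m
  hcop : n.Coprime m
  hs : ∀ g : G, cs g = 1 ∨ cs g = n ∨ cs g = m ∨ cs g = n * m
  hN : ∃ g : G, cs g = n
  hM : ∃ g : G, cs g = m
  hNM : ∃ g : G, cs g = n * m

variable {G : Type u} [Group G]

theorem Hyp.symm {n m : ℕ} (H : Hyp G n m) : Hyp G m n where
  hn := H.hm
  hm := H.hn
  hcop := H.hcop.symm
  hs g := by
    rcases H.hs g with h | h | h | h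
    · exact Or.inl h
    · exact Or.inr (Or.inr (Or.inl h))
    · exact Or.inr (Or.inl h)
    · exact Or.inr (Or.inr (Or.inr (by rw [h, mul_comm])))
  hN := H.hM
  hM := H.hN
  hNM := by
    obtain ⟨g, hg⟩ := H.hNM
    exact ⟨g, by rw [hg, mul_comm]⟩

theorem Hyp.mul_pos {n m : ℕ} (H : Hyp G n m) : 0 < n * m :=
  Nat.mul_pos (by have := H.hn; omega) (by have := H.hm; omega)

theorem Hyp.lt_mul_left {n m : ℕ} (H : Hyp G n m) : n < n * m := by
  have := H.hn
  have := H.hm
  nlinarith

theorem Hyp.lt_mul_right {n m : ℕ} (H : Hyp G n m) : m < n * m := by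
  have := H.hn
  have := H.hm
  nlinarith

/-- A class size dividing `n` is `1` or `n`. -/
theorem Hyp.eq_of_dvd_left {n m : ℕ} (H : Hyp G n m) {g : G} (hd : cs g ∣ n) :
    cs g = 1 ∨ cs g = n := by
  have h1 := H.hn
  have h2 := H.hm
  rcases H.hs g with h | h | h | h
  · exact Or.inl h
  · exact Or.inr h
  · exfalso
    rw [h] at hd
    have := Nat.eq_one_of_dvd_coprimes H.hcop.symm (dvd_refl m) hd
    omega
  · exfalso
    rw [h] at hd
    have := Nat.le_of_dvd (by omega) hd
    nlinarith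

theorem Hyp.eq_of_dvd_right {n m : ℕ} (H : Hyp G n m) {g : G} (hd : cs g ∣ m) :
    cs g = 1 ∨ cs g = m := H.symm.eq_of_dvd_left hd

variable [Finite G]

/-- Commuting with `b` passes to all conjugates of `b`, if the class sizes are coprime. -/
theorem comm_conj {a b : G} (hc : Nat.Coprime (cs a) (cs b)) (h : Commute a b) (g : G) :
    Commute a (g * b * g⁻¹) := by
  obtain ⟨c, hc1, hc2⟩ := exists_conj_eq hc g
  rw [hc2]
  have h1 : Commute a c := mem_cent_iff.1 hc1
  exact (h1.mul_right h).mul_right h1.inv_right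

theorem comm_of_conj {a b : G} (hc : Nat.Coprime (cs a) (cs b)) (g : G)
    (h : Commute a (g * b * g⁻¹)) : Commute a b := by
  have h1 : Nat.Coprime (cs a) (cs (g * b * g⁻¹)) := by rwa [cs_conj]
  have h2 := comm_conj h1 h g⁻¹
  have h3 : g⁻¹ * (g * b * g⁻¹) * g⁻¹⁻¹ = b := by group
  rwa [h3] at h2

/-- A `p`-element has a conjugate in each Sylow `p`-subgroup. -/
theorem exists_conj_mem_sylow {p : ℕ} [Fact p.Prime] (P : Sylow p G) {x : G} {e : ℕ}
    (hx : orderOf x = p ^ e) : ∃ h : G, h * x * h⁻¹ ∈ (P : Subgroup G) := by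
  obtain ⟨Q, hQ⟩ := Cfsg.Agent.Lib.Basic.SylowUtil.exists_sylow_of_orderOf hx
  obtain ⟨g, hg⟩ := MulAction.exists_smul_eq G Q P
  refine ⟨g, ?_⟩
  rw [← hg, Sylow.coe_subgroup_smul]
  exact ⟨x, hQ, rfl⟩

/-- If `p` does not divide the class size of `z`, then `z` commutes with a conjugate of each
`p`-element. -/
theorem exists_conj_comm {p : ℕ} [Fact p.Prime] {x z : G} {e : ℕ} (hx : orderOf x = p ^ e)
    (hp : ¬ p ∣ cs z) : ∃ h : G, Commute (h * x * h⁻¹) z := by
  obtain ⟨P, hP⟩ := exists_sylow_le_cent hp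
  obtain ⟨h, hh⟩ := exists_conj_mem_sylow P hx
  exact ⟨h, (mem_cent_iff.1 (hP hh)).symm⟩

theorem comm_of_not_dvd {p : ℕ} [Fact p.Prime] {x y : G} {e : ℕ} (hc : Nat.Coprime (cs x) (cs y))
    (hx : orderOf x = p ^ e) (hp : ¬ p ∣ cs y) : Commute x y := by
  obtain ⟨h, hh⟩ := exists_conj_comm hx hp
  have h1 : Commute y (h * x * h⁻¹) := hh.symm
  exact (comm_of_conj hc.symm h h1).symm

/-- Elements of the largest class: the centralizer of `g` is inside that of an element commuting
with `g` with coprime order. -/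
theorem cent_le_of_max {n m : ℕ} (H : Hyp G n m) {a g : G} (hcomm : Commute a g)
    (hc : Nat.Coprime (orderOf a) (orderOf g)) (hg : cs g = n * m) : cent g ≤ cent a := by
  have h1 := cent_mul_eq_inf hcomm hc
  have h2 : cs g ∣ cs (a * g) := Subgroup.index_dvd_of_le (by rw [h1]; exact inf_le_right)
  have h3 : cs (a * g) = n * m := by
    have h5 := H.lt_mul_left
    have h6 := H.lt_mul_right
    have h7 := H.mul_pos
    have h8 := H.hn
    have h9 := H.hm
    rw [hg] at h2
    rcases H.hs (a * g) with h4 | h4 | h4 | h4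
    · rw [h4] at h2
      have := Nat.le_of_dvd (by omega) h2
      omega
    · rw [h4] at h2
      have := Nat.le_of_dvd (by omega) h2
      omega
    · rw [h4] at h2
      have := Nat.le_of_dvd (by omega) h2
      omega
    · exact h4
  have h8 : cent (a * g) = cent g := eq_of_le_of_index_eq (by rw [h1]; exact inf_le_right) (by
    show cs (a * g) = cs g
    rw [h3, hg])
  rw [← h8, h1]
  exact inf_le_left

/-! ### The stabilizer of a class -/

/-- The left stabilizer of the class of `x`. -/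
noncomputable def Tx (x : G) : Subgroup G := leftStab (classOf x)

instance Tx_normal (x : G) : (Tx x).Normal := leftStab_normal classOf_conj

theorem card_Tx_dvd (x : G) : Nat.card (Tx x) ∣ cs x := by
  have := card_leftStab_dvd (classOf x)
  rwa [card_classOf] at this

/-- The centre of `Tx x`. -/
noncomputable def Nx (x : G) : Subgroup G := Tx x ⊓ centralizer (Tx x : Set G)

instance Nx_normal (x : G) : (Nx x).Normal := by
  unfold Nx
  infer_instance

theorem Nx_le_Tx (x : G) : Nx x ≤ Tx x := inf_le_left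

theorem card_Nx_dvd (x : G) : Nat.card (Nx x) ∣ cs x :=
  (Subgroup.card_dvd_of_le (Nx_le_Tx x)).trans (card_Tx_dvd x)

/-- Injecting the class into `A`. -/
theorem cs_le_card_of_forall {x : G} {A : Subgroup G} (h : ∀ g : G, x⁻¹ * (g * x * g⁻¹) ∈ A) :
    cs x ≤ Nat.card A := by
  rw [← card_classOf]
  have hmem : ∀ s : classOf x, x⁻¹ * s.1 ∈ A := by
    rintro ⟨s, hs⟩
    obtain ⟨c, rfl⟩ := isConj_iff.1 hs
    exact h c
  refine Nat.card_le_card_of_injective (fun s : classOf x => (⟨x⁻¹ * s.1, hmem s⟩ : A)) ?_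
  intro s s' hss
  have h1 : x⁻¹ * s.1 = x⁻¹ * s'.1 := congrArg Subtype.val hss
  exact Subtype.ext (mul_left_cancel h1)

section stepI

variable {n m : ℕ} (H : Hyp G n m)

include H

/-- Noncommuting elements of sizes `n > m`: the product has class size `n`. -/
theorem cs_mul_eq (hlt : m < n) {x b : G} (hx : cs x = n) (hb : cs b = m) (hxb : ¬ Commute x b) :
    cs (b * x) = n := by
  have hc : Nat.Coprime (cs b) (cs x) := by
    rw [hx, hb]
    exact H.hcop.symm
  have hn1 := H.hn
  have hm1 := H.hm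
  rcases H.hs (b * x) with h | h | h | h
  · -- central
    exfalso
    have h1 : cs (b * x) = cs b := cs_mul_eq_left hc (by rw [h, hx]; exact Nat.coprime_one_right n)
    rw [h, hb] at h1
    omega
  · exact h
  · -- size `m`
    exfalso
    have h1 : cs (x * b) = cs b := by rw [cs_mul_comm, h, hb]
    have h2 := fun g => mem_leftStab_of_type hc.symm h1 g
    have h3 := cs_le_card_of_forall h2
    have h4 := card_leftStab_dvd (classOf b)
    rw [card_classOf, hb] at h4
    have h5 := Nat.le_of_dvd (by omega) h4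
    rw [hx] at h3
    omega
  · -- size `nm`
    exfalso
    have h1 := inf_cent_le_cent_mul b x
    have h2 : (cent b ⊓ cent x).index = n * m := by
      rw [index_inf_of_coprime hc]
      show cs b * cs x = n * m
      rw [hb, hx, mul_comm]
    have h3 : cent b ⊓ cent x = cent (b * x) := eq_of_le_of_index_eq h1 (by
      rw [h2]
      exact h.symm)
    have h4 : b * x ∈ cent b ⊓ cent x := by
      rw [h3]
      exact mem_cent_self _
    have h5 : x ∈ cent b := by
      have h6 := (cent b).mul_mem ((cent b).inv_mem (mem_cent_self b)) h4.1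
      have h7 : b⁻¹ * (b * x) = x := by group
      rwa [h7] at h6
    exact hxb (mem_cent_iff.1 h5).symm

omit H in
/-- If `o(x)` is prime to `cs x`, then `Tx x` meets the centralizer of `x` trivially. -/
theorem eq_one_of_mem_Tx {x w : G} (hco : Nat.Coprime (orderOf x) (cs x)) (hw : w ∈ Tx x)
    (hc : Commute w x) : w = 1 := by
  have h1 : w * x ∈ classOf x := hw x (IsConj.refl x)
  obtain ⟨c, hc1⟩ := isConj_iff.1 (show IsConj x (w * x) from h1)
  have h2 : orderOf (w * x) = orderOf x := by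
    rw [← hc1]
    have : c * x * c⁻¹ = (MulAut.conj c).toMonoidHom x := by simp [MulAut.conj_apply]
    rw [this]
    exact orderOf_injective _ (MulAut.conj c).injective x
  have h3 : orderOf w ∣ cs x := (orderOf_dvd_natCard (⟨w, hw⟩ : Tx x)).trans (card_Tx_dvd x) |> fun h => by
    have h0 : orderOf (⟨w, hw⟩ : Tx x) = orderOf w := Subgroup.orderOf_mk w hw
    rwa [h0] at h
  have h4 : Nat.Coprime (orderOf w) (orderOf x) := Nat.Coprime.coprime_dvd_left h3 hco.symm
  have h5 := hc.orderOf_mul_eq_mul_orderOf_of_coprime h4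
  rw [h2] at h5
  have h6 : 0 < orderOf x := orderOf_pos x
  have h7 : orderOf w = 1 := by nlinarith
  exact orderOf_eq_one_iff.1 h7

/-- Elements `b⁻¹ b^g` lie in `Nx x`. -/
theorem mem_Nx (hlt : m < n) {x b : G} (hx : cs x = n) (hb : cs b = m) (hxb : ¬ Commute x b) (g : G) :
    b⁻¹ * (g * b * g⁻¹) ∈ Nx x := by
  have hc : Nat.Coprime (cs b) (cs x) := by
    rw [hx, hb]
    exact H.hcop.symm
  have h1 : cs (b * x) = cs x := by rw [cs_mul_eq H hlt hx hb hxb, hx]
  refine ⟨mem_leftStab_of_type hc h1 g, ?_⟩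
  show _ ∈ centralizer ((Tx x : Subgroup G) : Set G)
  rw [Subgroup.mem_centralizer_iff]
  intro t ht
  have h2 : Tx x ≤ cent b := le_cent_of_coprime (Nat.Coprime.coprime_dvd_left (card_Tx_dvd x) hc.symm)
  have h3 : Tx x ≤ cent (g * b * g⁻¹) := le_cent_of_coprime
    (Nat.Coprime.coprime_dvd_left (card_Tx_dvd x) (by rw [cs_conj]; exact hc.symm))
  have h4 : Commute b t := mem_cent_iff.1 (h2 ht)
  have h5 : Commute (g * b * g⁻¹) t := mem_cent_iff.1 (h3 ht)
  exact ((h4.inv_left).mul_left h5).symm.eq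

/-- An element of size `m` not commuting with `x` lies in `Nx x` modulo the centre. -/
theorem exists_mem_Nx (hlt : m < n) {x b : G} (hx : cs x = n) (hco : Nat.Coprime (orderOf x) n)
    (hb : cs b = m) (hxb : ¬ Commute x b) : ∃ w ∈ Nx x, b * w⁻¹ ∈ center G := by
  have hco' : Nat.Coprime (orderOf x) (cs x) := by rwa [hx]
  have hmemT : ∀ {u : G}, u ∈ Nx x → u ∈ Tx x := fun h => Nx_le_Tx x h
  -- the commutator map on `Nx x`
  have hconj : ∀ w ∈ Nx x, x * w * x⁻¹ ∈ Nx x := fun w hw => (Nx_normal x).conj_mem w hw x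
  let φ : Nx x → Nx x := fun w => ⟨w.1⁻¹ * (x * w.1 * x⁻¹), (Nx x).mul_mem ((Nx x).inv_mem w.2) (hconj _ w.2)⟩
  have hφinj : Function.Injective φ := by
    intro w₁ w₂ h12
    have h1 : w₁.1⁻¹ * (x * w₁.1 * x⁻¹) = w₂.1⁻¹ * (x * w₂.1 * x⁻¹) := congrArg Subtype.val h12
    set u : G := w₂.1 * w₁.1⁻¹ with hu
    have hu_mem : u ∈ Nx x := (Nx x).mul_mem w₂.2 ((Nx x).inv_mem w₁.2)
    have h2 : x * u * x⁻¹ = u := by
      have h3 : x * w₂.1 * x⁻¹ = w₂.1 * (w₁.1⁻¹ * (x * w₁.1 * x⁻¹)) := by rw [h1]; group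
      calc x * u * x⁻¹ = (x * w₂.1 * x⁻¹) * (x * w₁.1⁻¹ * x⁻¹) := by rw [hu]; group
        _ = (w₂.1 * (w₁.1⁻¹ * (x * w₁.1 * x⁻¹))) * (x * w₁.1⁻¹ * x⁻¹) := by rw [h3]
        _ = u := by rw [hu]; group
    have h3 : Commute u x := by
      show u * x = x * u
      calc u * x = (x * u * x⁻¹) * x := by rw [h2]
        _ = x * u := by group
    have h4 := eq_one_of_mem_Tx hco' (hmemT hu_mem) h3
    have h5 : w₂.1 = w₁.1 := by
      have : w₂.1 * w₁.1⁻¹ = 1 := h4
      exact mul_inv_eq_one.1 this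
    exact Subtype.ext h5.symm
  have hφsurj : Function.Surjective φ := Finite.injective_iff_surjective.1 hφinj
  obtain ⟨w, hw⟩ := hφsurj ⟨b⁻¹ * (x * b * x⁻¹), mem_Nx H hlt hx hb hxb x⟩
  have hw1 : w.1⁻¹ * (x * w.1 * x⁻¹) = b⁻¹ * (x * b * x⁻¹) := congrArg Subtype.val hw
  refine ⟨w.1, w.2, ?_⟩
  set z : G := b * w.1⁻¹ with hz
  -- `z` commutes with `x`
  have hzx : x * z * x⁻¹ = z := by
    have h3 : x * b * x⁻¹ = b * (w.1⁻¹ * (x * w.1 * x⁻¹)) := by rw [hw1]; group
    calc x * z * x⁻¹ = (x * b * x⁻¹) * (x * w.1⁻¹ * x⁻¹) := by rw [hz]; group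
      _ = (b * (w.1⁻¹ * (x * w.1 * x⁻¹))) * (x * w.1⁻¹ * x⁻¹) := by rw [h3]
      _ = z := by rw [hz]; group
  have hzx' : z ∈ cent x := by
    rw [mem_cent_iff]
    calc x * z = (x * z * x⁻¹) * x := by group
      _ = z * x := by rw [hzx]
  -- `z` commutes with `b`
  have hc : Nat.Coprime (cs x) (cs b) := by
    rw [hx, hb]
    exact H.hcop
  have hTb : Tx x ≤ cent b := le_cent_of_coprime (Nat.Coprime.coprime_dvd_left (card_Tx_dvd x) hc)
  have hzb : z ∈ cent b := by
    have h1 : w.1 ∈ cent b := hTb (hmemT w.2)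
    exact (cent b).mul_mem (mem_cent_self b) ((cent b).inv_mem h1)
  -- `cent x` centralizes `z`
  have hle : cent x ≤ cent z := by
    intro c hcx
    set u : G := z⁻¹ * (c * z * c⁻¹) with hu
    have hu_mem : u ∈ Tx x := by
      have h1 : b⁻¹ * (c * b * c⁻¹) ∈ Tx x := Nx_le_Tx x (mem_Nx H hlt hx hb hxb c)
      have h2 : w.1 ∈ Tx x := hmemT w.2
      have h3 : c * w.1⁻¹ * c⁻¹ ∈ Tx x := (Tx_normal x).conj_mem _ ((Tx x).inv_mem h2) c
      have h4 : u = w.1 * (b⁻¹ * (c * b * c⁻¹)) * (c * w.1⁻¹ * c⁻¹) := by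
        rw [hu, hz]
        group
      rw [h4]
      exact (Tx x).mul_mem ((Tx x).mul_mem h2 h1) h3
    have h5 : Commute u x := by
      have h6 : Commute x z := mem_cent_iff.1 hzx'
      have h7 : Commute x c := mem_cent_iff.1 hcx
      have h8 : Commute x (c * z * c⁻¹) := (h7.mul_right h6).mul_right h7.inv_right
      exact ((h6.inv_right).mul_right h8).symm
    have h6 := eq_one_of_mem_Tx hco' hu_mem h5
    have h7 : c * z * c⁻¹ = z := by
      have h8 : z⁻¹ * (c * z * c⁻¹) = 1 := h6
      exact (inv_mul_eq_one.1 h8).symm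
    rw [mem_cent_iff]
    calc z * c = (c * z * c⁻¹) * c := by rw [h7]
      _ = c * z := by group
  have hd : cs z ∣ n := by
    rw [← hx]
    exact Subgroup.index_dvd_of_le hle
  rcases H.eq_of_dvd_left hd with h1 | h1
  · exact index_cent_eq_one_iff.1 h1
  · exfalso
    have h2 : cent x = cent z := eq_of_le_of_index_eq hle (by
      show cs x = cs z
      rw [hx, h1])
    have h3 : b ∈ cent x := by
      rw [h2]
      exact mem_cent_comm.1 hzb
    exact hxb (mem_cent_iff.1 h3)

/-- No element of the intersection of the centralizers has class size `m`. -/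
theorem cs_ne_right (hlt : m < n) {x y g : G} (hx : cs x = n) (hco : Nat.Coprime (orderOf x) n)
    {r a : ℕ} [Fact r.Prime] (hor : orderOf x = r ^ a) (hrn : ¬ r ∣ n)
    (hy : cs y = m) (hxy : ¬ Commute x y) (hgx : g ∈ cent x) (hgy : g ∈ cent y) : cs g ≠ m := by
  intro hg
  have hcxg : Commute x g := mem_cent_iff.1 hgx
  have hcyg : Commute y g := mem_cent_iff.1 hgy
  have hco' : Nat.Coprime (orderOf x) (cs x) := by rwa [hx]
  have hn1 := H.hn
  have hm1 := H.hm
  have hcgx : Nat.Coprime (cs g) (cs x) := by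
    rw [hg, hx]
    exact H.hcop.symm
  set v : G := g * y with hv
  have hy_eq : y = g⁻¹ * v := by rw [hv]; group
  have hxv : ¬ Commute x v := by
    intro h
    apply hxy
    rw [hy_eq]
    exact hcxg.inv_right.mul_right h
  have hvm : cs v = m := by
    rcases H.hs v with h | h | h | h
    · exfalso
      apply hxv
      have := index_cent_eq_one_iff.1 h
      exact Subgroup.mem_center_iff.1 this x
    · exfalso
      -- a conjugate of `x` commutes with `v`
      have hrv : ¬ r ∣ cs v := by rwa [h]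
      obtain ⟨c, hc⟩ := exists_conj_comm hor hrv
      have h1 : Commute g (c * x * c⁻¹) := comm_conj hcgx hcxg.symm c
      have h2 : Commute y (c * x * c⁻¹) := by
        rw [hy_eq]
        exact h1.inv_left.mul_left hc.symm
      have hcyx : Nat.Coprime (cs y) (cs x) := by
        rw [hy, hx]
        exact H.hcop.symm
      exact hxy (comm_of_conj hcyx c h2).symm
    · exact h
    · exfalso
      have h1 : cs v ≤ (cent g ⊓ cent y).index := Nat.le_of_dvd
        (Nat.pos_of_ne_zero Subgroup.index_ne_zero_of_finite)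
        (Subgroup.index_dvd_of_le (inf_cent_le_cent_mul g y))
      have h2 : (cent g ⊓ cent y).index ≤ m * m := by
        have := Subgroup.index_inf_le (H := cent g) (K := cent y)
        have h3 : (cent g).index = m := hg
        have h4 : (cent y).index = m := hy
        rwa [h3, h4] at this
      rw [h] at h1
      nlinarith
  obtain ⟨w₁, hw₁, hz₁⟩ := exists_mem_Nx H hlt hx hco hvm hxv
  obtain ⟨w₂, hw₂, hz₂⟩ := exists_mem_Nx H hlt hx hco hy hxy
  set z₁ := v * w₁⁻¹ with hz₁def
  set z₂ := y * w₂⁻¹ with hz₂def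
  have hg_eq : g = z₁ * z₂⁻¹ * (w₁ * w₂⁻¹) := by
    have h1 : (z₂⁻¹) * (w₁ * w₂⁻¹) = (w₁ * w₂⁻¹) * z₂⁻¹ := by
      have := Subgroup.mem_center_iff.1 ((center G).inv_mem hz₂) (w₁ * w₂⁻¹)
      exact this.symm
    calc g = v * y⁻¹ := by rw [hv]; group
      _ = z₁ * (w₁ * w₂⁻¹) * z₂⁻¹ := by rw [hz₁def, hz₂def]; group
      _ = z₁ * ((w₁ * w₂⁻¹) * z₂⁻¹) := by group
      _ = z₁ * (z₂⁻¹ * (w₁ * w₂⁻¹)) := by rw [h1]
      _ = z₁ * z₂⁻¹ * (w₁ * w₂⁻¹) := by group
  set u : G := w₁ * w₂⁻¹ with hu
  have hu_mem : u ∈ Tx x := Nx_le_Tx x ((Nx x).mul_mem hw₁ ((Nx x).inv_mem hw₂))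
  have hzc : z₁ * z₂⁻¹ ∈ center G := (center G).mul_mem hz₁ ((center G).inv_mem hz₂)
  have hu_eq : u = (z₁ * z₂⁻¹)⁻¹ * g := by
    rw [hg_eq]
    group
  have hcu : Commute u x := by
    rw [hu_eq]
    have h1 : Commute (z₁ * z₂⁻¹) x := (Subgroup.mem_center_iff.1 hzc x).symm
    exact h1.inv_left.mul_left hcxg.symm
  have hu1 := eq_one_of_mem_Tx hco' hu_mem hcu
  have hgc : g ∈ center G := by
    rw [hg_eq, hu1, mul_one]
    exact hzc
  have h1 := index_cent_eq_one_iff.2 hgc
  have h2 : (cent g).index = m := hg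
  omega

/-- No element of coprime order in the intersection has class size `n`. -/
theorem cs_ne_left_of_coprime (hlt : m < n) {x y g : G} (hx : cs x = n)
    (hco : Nat.Coprime (orderOf x) n) (hy : cs y = m) (hxy : ¬ Commute x y) (hgx : g ∈ cent x)
    (hgy : g ∈ cent y) (hc : Nat.Coprime (orderOf x) (orderOf g)) : cs g ≠ n := by
  intro hg
  have hcxg : Commute x g := mem_cent_iff.1 hgx
  have hcgy : Commute g y := (mem_cent_iff.1 hgy).symm
  have hco' : Nat.Coprime (orderOf x) (cs x) := by rwa [hx]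
  have hn1 := H.hn
  have hm1 := H.hm
  have hcgy' : Nat.Coprime (cs g) (cs y) := by
    rw [hg, hy]
    exact H.hcop
  -- `N₁`
  set N₁ : Subgroup G := Nx x ⊓ cent g with hN₁
  have hmemN₁ : ∀ h : G, y⁻¹ * (h * y * h⁻¹) ∈ N₁ := by
    intro h
    refine ⟨mem_Nx H hlt hx hy hxy h, ?_⟩
    have h1 : Commute g (h * y * h⁻¹) := comm_conj hcgy' hcgy h
    exact mem_cent_iff.2 (hcgy.inv_right.mul_right h1).eq
  have h1 : m ≤ Nat.card N₁ := by
    have := cs_le_card_of_forall hmemN₁
    rwa [hy] at this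
  have h2 : Nat.card N₁ ∣ n := by
    have h3 := card_Nx_dvd x
    rw [hx] at h3
    exact (Subgroup.card_dvd_of_le inf_le_left).trans h3
  have h3 : Nat.card N₁ ≠ m := by
    intro h4
    rw [h4] at h2
    have := Nat.eq_one_of_dvd_coprimes H.hcop.symm (dvd_refl m) h2
    omega
  -- the index
  set D : Subgroup G := cent x ⊓ cent g with hD
  have hDle : D ≤ cent g := inf_le_right
  have h4 : D.relIndex (cent g) * (cent g).index = D.index := Subgroup.relIndex_mul_index hDle
  have h5 : D.index = cs (x * g) := by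
    rw [hD, ← cent_mul_eq_inf hcxg hc]
  have h6 : cs (x * g) ≤ n * m := by
    rcases H.hs (x * g) with h | h | h | h <;> rw [h]
    · exact H.mul_pos
    · exact H.lt_mul_left.le
    · exact H.lt_mul_right.le
  have h7 : D.relIndex (cent g) ≤ m := by
    have h8 : (cent g).index = n := hg
    rw [h8, h5] at h4
    have h9 : D.relIndex (cent g) * n ≤ m * n := by
      rw [h4, mul_comm m n]
      exact h6
    exact Nat.le_of_mul_le_mul_right h9 (by omega)
  -- inject `N₁` into the cosets
  have h8 : Nat.card N₁ ≤ D.relIndex (cent g) := by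
    rw [Subgroup.relIndex, Subgroup.index]
    have hfin : Finite (↥(cent g) ⧸ D.subgroupOf (cent g)) := inferInstance
    refine Nat.card_le_card_of_injective
      (fun w : N₁ => (QuotientGroup.mk (⟨w.1, w.2.2⟩ : cent g) : ↥(cent g) ⧸ D.subgroupOf (cent g))) ?_
    intro w₁ w₂ h12
    have h13 := QuotientGroup.eq.1 h12
    rw [Subgroup.mem_subgroupOf] at h13
    have h14 : w₁.1⁻¹ * w₂.1 ∈ D := h13
    have h15 : w₁.1⁻¹ * w₂.1 ∈ Tx x :=
      (Tx x).mul_mem ((Tx x).inv_mem (Nx_le_Tx x w₁.2.1)) (Nx_le_Tx x w₂.2.1)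
    have h16 : Commute (w₁.1⁻¹ * w₂.1) x := (mem_cent_iff.1 h14.1).symm
    have h17 := eq_one_of_mem_Tx hco' h15 h16
    exact Subtype.ext (inv_mul_eq_one.1 h17)
  omega

/-- Elements of coprime order in the intersection are central. -/
theorem mem_center_of_coprime (hlt : m < n) {x y g : G} (hx : cs x = n)
    (hco : Nat.Coprime (orderOf x) n) {r a : ℕ} [Fact r.Prime] (hor : orderOf x = r ^ a) (hrn : ¬ r ∣ n)
    (hy : cs y = m) (hxy : ¬ Commute x y) (hgx : g ∈ cent x)
    (hgy : g ∈ cent y) (hc : Nat.Coprime (orderOf x) (orderOf g)) : g ∈ center G := by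
  rcases H.hs g with h | h | h | h
  · exact index_cent_eq_one_iff.1 h
  · exact absurd h (cs_ne_left_of_coprime H hlt hx hco hy hxy hgx hgy hc)
  · exact absurd h (cs_ne_right H hlt hx hco hor hrn hy hxy hgx hgy)
  · exfalso
    have h1 := cent_le_of_max H (mem_cent_iff.1 hgx) hc h
    exact hxy (mem_cent_iff.1 (h1 (mem_cent_comm.1 hgy)))

/-- `r'`-elements of the intersection are central. -/
theorem mem_center_of_not_dvd (hlt : m < n) {x y g : G} (hx : cs x = n)
    (hco : Nat.Coprime (orderOf x) n) {r a : ℕ} [Fact r.Prime] (hor : orderOf x = r ^ a) (hrn : ¬ r ∣ n)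
    (hy : cs y = m) (hxy : ¬ Commute x y) (hgx : g ∈ cent x)
    (hgy : g ∈ cent y) (hr : ¬ r ∣ orderOf g) : g ∈ center G := by
  by_contra hg
  obtain ⟨k, hk, s, e, hs, ho⟩ := exists_primary_pow_notMem hg
  apply hk
  refine mem_center_of_coprime H hlt hx hco hor hrn hy hxy ((cent x).pow_mem hgx k) ((cent y).pow_mem hgy k) ?_
  rw [hor]
  apply Nat.Coprime.pow_left
  rw [Nat.Prime.coprime_iff_not_dvd (Fact.out)]
  intro h1
  exact hr (h1.trans (orderOf_pow_dvd k))

omit H in
/-- Index of the image of a subgroup containing the centre in the central quotient. -/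
theorem index_map_mk_of_le {S : Subgroup G} (hS : center G ≤ S) :
    (S.map (QuotientGroup.mk' (center G))).index = S.index := by
  rw [Subgroup.index_map, QuotientGroup.range_mk', Subgroup.index_top, mul_one, QuotientGroup.ker_mk',
    sup_eq_left.2 hS]

/-- No element of the intersection has class size `n`. -/
theorem cs_ne_left (hlt : m < n) {x y u : G} (hx : cs x = n)
    (hco : Nat.Coprime (orderOf x) n) {r a : ℕ} [Fact r.Prime] (hor : orderOf x = r ^ a) (hrn : ¬ r ∣ n)
    (hy : cs y = m) (hxy : ¬ Commute x y) (hux : u ∈ cent x) (huy : u ∈ cent y) : cs u ≠ n := by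
  intro hu
  have hn1 := H.hn
  have hm1 := H.hm
  have hco' : Nat.Coprime (orderOf x) (cs x) := by rwa [hx]
  set π := QuotientGroup.mk' (center G) with hπ
  set L : Subgroup G := cent x ⊓ cent y with hL
  set A := L.map π with hA
  set A' := (cent u).map π with hA'
  have hLidx : L.index = n * m := by
    rw [hL, index_inf_of_coprime (by
      show Nat.Coprime (cs x) (cs y)
      rw [hx, hy]
      exact H.hcop)]
    show cs x * cs y = n * m
    rw [hx, hy]
  have hA1 : A.index = n * m := by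
    rw [hA, hπ, index_map_mk_of_le (le_inf (center_le_cent x) (center_le_cent y)), hLidx]
  have hA2 : A'.index = n := by
    rw [hA', hπ, index_map_mk_of_le (center_le_cent u)]
    exact hu
  have hcard : Nat.card A' = Nat.card A * m := by
    have h1 := A.card_mul_index
    have h2 := A'.card_mul_index
    rw [hA1] at h1
    rw [hA2] at h2
    have h3 : Nat.card A' * n = (Nat.card A * m) * n := by
      rw [h2, ← h1]
      ring
    exact Nat.eq_of_mul_eq_mul_right (by omega) h3
  -- the order of `A` is prime to `n`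
  have hcopA : Nat.Coprime (Nat.card A) n := by
    apply Nat.coprime_of_dvd
    intro s hs h1 h2
    obtain ⟨w, hwL, hwZ, i, hi⟩ := TwoSize.exists_primary_of_dvd hs L h1
    apply hwZ
    refine mem_center_of_not_dvd H hlt hx hco hor hrn hy hxy hwL.1 hwL.2 ?_
    rw [hi]
    intro h3
    have h4 := (Nat.prime_dvd_prime_iff_eq (Fact.out) hs).1 ((Nat.Prime.dvd_of_dvd_pow Fact.out) h3)
    rw [h4] at hrn
    exact hrn h2
  have hcopA' : Nat.Coprime (Nat.card A') n := by
    rw [hcard]
    exact Nat.Coprime.mul_left hcopA H.hcop.symm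
  -- the elements `y⁻¹ y^h` are trivial
  have hcuy : Nat.Coprime (cs u) (cs y) := by
    rw [hu, hy]
    exact H.hcop
  have hall : ∀ h : G, y⁻¹ * (h * y * h⁻¹) = 1 := by
    intro h
    set w : G := y⁻¹ * (h * y * h⁻¹) with hw
    have hwN : w ∈ Nx x := mem_Nx H hlt hx hy hxy h
    have hwT : w ∈ Tx x := Nx_le_Tx x hwN
    have hwu : w ∈ cent u := by
      have h1 : Commute u y := mem_cent_iff.1 huy |>.symm
      have h2 : Commute u (h * y * h⁻¹) := comm_conj hcuy h1 h
      exact mem_cent_iff.2 (h1.inv_right.mul_right h2).eq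
    have h1 : orderOf w ∣ n := by
      have h2 : orderOf (⟨w, hwT⟩ : Tx x) = orderOf w := Subgroup.orderOf_mk w hwT
      rw [← h2]
      have h3 := card_Tx_dvd x
      rw [hx] at h3
      exact (_root_.orderOf_dvd_natCard _).trans h3
    have hmem : π w ∈ A' := Subgroup.mem_map_of_mem _ hwu
    have h2 : orderOf (π w) ∣ Nat.card A' := by
      have h3 : orderOf (⟨π w, hmem⟩ : A') = orderOf (π w) := Subgroup.orderOf_mk _ hmem
      rw [← h3]
      exact _root_.orderOf_dvd_natCard _
    have h3 : orderOf (π w) ∣ n := (orderOf_map_dvd π w).trans h1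
    have h4 : orderOf (π w) = 1 := Nat.eq_one_of_dvd_coprimes hcopA' h2 h3
    have h5 : w ∈ center G := TwoSize.mk_eq_one_iff.1 (orderOf_eq_one_iff.1 h4)
    exact eq_one_of_mem_Tx hco' hwT (Subgroup.mem_center_iff.1 h5 x).symm
  have hyc : y ∈ center G := by
    rw [Subgroup.mem_center_iff]
    intro h
    have h1 := hall h
    have h2 : h * y * h⁻¹ = y := (inv_mul_eq_one.1 h1).symm
    calc h * y = (h * y * h⁻¹) * h := by group
      _ = y * h := by rw [h2]
  have h1 := index_cent_eq_one_iff.2 hyc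
  have h2 : (cent y).index = m := hy
  omega

/-- The intersection of the centralizers is central, which is impossible. -/
theorem false_of_noncomm (hlt : m < n) {x y : G} (hx : cs x = n)
    (hco : Nat.Coprime (orderOf x) n) {r a t b : ℕ} [Fact r.Prime] [Fact t.Prime] (hrt : r ≠ t)
    (hor : orderOf x = r ^ a) (hrn : ¬ r ∣ n)
    (hoy : orderOf y = t ^ b)
    (hy : cs y = m) (hxy : ¬ Commute x y) : False := by
  have hn1 := H.hn
  have hm1 := H.hm
  have hLZ : cent x ⊓ cent y ≤ center G := by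
    intro g hg
    by_contra hgZ
    obtain ⟨k, hk, s, e, hs, ho⟩ := exists_primary_pow_notMem hgZ
    set g₁ := g ^ k with hg₁
    have h1 : g₁ ∈ cent x := (cent x).pow_mem hg.1 k
    have h2 : g₁ ∈ cent y := (cent y).pow_mem hg.2 k
    by_cases hr : r ∣ orderOf g₁
    · -- `g₁` is an `r`-element
      have hsr : r = s := by
        rw [ho] at hr
        exact (Nat.prime_dvd_prime_iff_eq Fact.out hs).1 (Nat.Prime.dvd_of_dvd_pow Fact.out hr)
      apply hk
      rcases H.hs g₁ with h | h | h | h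
      · exact index_cent_eq_one_iff.1 h
      · exact absurd h (cs_ne_left H hlt hx hco hor hrn hy hxy h1 h2)
      · exact absurd h (cs_ne_right H hlt hx hco hor hrn hy hxy h1 h2)
      · exfalso
        have h3 : Nat.Coprime (orderOf y) (orderOf g₁) := by
          rw [hoy, ho, ← hsr]
          exact Nat.Coprime.pow _ _ ((Nat.coprime_primes Fact.out Fact.out).2 hrt.symm)
        have h4 := cent_le_of_max H (mem_cent_iff.1 h2) h3 h
        exact hxy (mem_cent_iff.1 (h4 (mem_cent_comm.1 h1))).symm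
    · exact hk (mem_center_of_not_dvd H hlt hx hco hor hrn hy hxy h1 h2 hr)
  obtain ⟨u, hu⟩ := H.hNM
  have h1 : cent x ⊓ cent y ≤ cent u := hLZ.trans (center_le_cent u)
  have h2 : cent x ⊓ cent y = cent u := eq_of_le_of_index_eq h1 (by
    rw [index_inf_of_coprime (by
      show Nat.Coprime (cs x) (cs y)
      rw [hx, hy]
      exact H.hcop)]
    show cs x * cs y = cs u
    rw [hx, hy, hu])
  have h3 : u ∈ center G := hLZ (by rw [h2]; exact mem_cent_self u)
  have h4 := index_cent_eq_one_iff.2 h3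
  have h5 : (cent u).index = n * m := hu
  have h6 := H.lt_mul_left
  omega

/-- Elements of class sizes `n > m` commute. -/
theorem comm_of_lt (hlt : m < n) {x y : G} (hx : cs x = n) (hy : cs y = m) : Commute x y := by
  by_contra hxy
  have hn1 := H.hn
  have hm1 := H.hm
  -- primary parts
  have hy' : x ∉ cent y := fun h => hxy (mem_cent_iff.1 h).symm
  obtain ⟨k, hk, r, a, hr, hor⟩ := exists_primary_pow_notMem hy'
  set x₁ := x ^ k with hx₁
  have hx1 : y ∉ cent x₁ := fun h => hk (mem_cent_comm.1 h)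
  obtain ⟨l, hl, t, b, ht, hot⟩ := exists_primary_pow_notMem hx1
  set y₁ := y ^ l with hy₁
  haveI : Fact r.Prime := ⟨hr⟩
  haveI : Fact t.Prime := ⟨ht⟩
  have hxy₁ : ¬ Commute x₁ y₁ := fun h => hl (mem_cent_iff.2 h)
  have hsx : cs x₁ = n := by
    have hd : cs x₁ ∣ n := by
      rw [← hx]
      exact cs_dvd_of_pow x k
    rcases H.eq_of_dvd_left hd with h | h
    · exfalso
      apply hxy₁
      have h1 := index_cent_eq_one_iff.1 h
      exact (Subgroup.mem_center_iff.1 h1 y₁).symm
    · exact h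
  have hsy : cs y₁ = m := by
    have hd : cs y₁ ∣ m := by
      rw [← hy]
      exact cs_dvd_of_pow y l
    rcases H.eq_of_dvd_right hd with h | h
    · exfalso
      apply hxy₁
      have h1 := index_cent_eq_one_iff.1 h
      exact Subgroup.mem_center_iff.1 h1 x₁
    · exact h
  have hc : Nat.Coprime (cs x₁) (cs y₁) := by
    rw [hsx, hsy]
    exact H.hcop
  have hrm : r ∣ m := by
    by_contra h
    exact hxy₁ (comm_of_not_dvd hc hor (by rwa [hsy]))
  have htn : t ∣ n := by
    by_contra h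
    exact hxy₁ (comm_of_not_dvd hc.symm hot (by rwa [hsx])).symm
  have hrn : ¬ r ∣ n := fun h => by
    have := Nat.eq_one_of_dvd_coprimes H.hcop h hrm
    have h2 := hr.one_lt
    omega
  have hrt : r ≠ t := by
    rintro rfl
    exact hrn htn
  have hco : Nat.Coprime (orderOf x₁) n := by
    rw [hor]
    exact Nat.Coprime.pow_left _ ((Nat.Prime.coprime_iff_not_dvd hr).2 hrn)
  exact false_of_noncomm H hlt hsx hco hrt hor hrn hot hsy hxy₁

/-- Elements of class sizes `n` and `m` commute. -/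
theorem comm_of_sizes {x y : G} (hx : cs x = n) (hy : cs y = m) : Commute x y := by
  have hne : n ≠ m := by
    rintro rfl
    have := Nat.eq_one_of_dvd_coprimes H.hcop (dvd_refl n) (dvd_refl n)
    have h2 := H.hn
    omega
  rcases lt_or_gt_of_ne hne with h | h
  · exact (comm_of_lt H.symm h hy hx).symm
  · exact comm_of_lt H h hx hy

end stepI

end Cfsg.Agent.Lib.ClassSize.Camina
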