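import Mathlib
import Cfsg.Agent.Lib.ClassSize.Coprime

/-!
# Covering a group by conjugates of centralizers of Sylow subgroups

Counting: `U p` is the set of elements centralizing a Sylow `p`-subgroup. It has at most
`1 + n_p (|C(P)| - 1)` elements. If a group is covered by `U p` and `U q`, then `N(P) = C(P)` or
`N(Q) = C(Q)`.
-/

set_option autoImplicit false

namespace Cfsg.Agent.Lib.ClassSize.Cover

open Subgroup Cfsg.Agent.Lib.ClassSize.Basic Cfsg.Agent.Lib.ClassSize.Coprime
open scoped Pointwise

universe u

variable {G : Type u} [Group G] [Finite G]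

/-- Conjugates of the centralizer of a Sylow subgroup have the same order. -/
theorem card_centralizer_smul {p : ℕ} (P : Sylow p G) (g : G) :
    Nat.card (centralizer (((g • P : Sylow p G) : Subgroup G) : Set G)) =
      Nat.card (centralizer ((P : Subgroup G) : Set G)) := by
  have h : centralizer (((g • P : Sylow p G) : Subgroup G) : Set G) =
      MulAut.conj g • centralizer ((P : Subgroup G) : Set G) := by
    ext a
    rw [Subgroup.mem_pointwise_smul_iff_inv_smul_mem, Subgroup.mem_centralizer_iff,
      Subgroup.mem_centralizer_iff]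
    constructor
    · intro h b hb
      have h1 : g * b * g⁻¹ ∈ ((g • P : Sylow p G) : Subgroup G) := by
        rw [Sylow.coe_subgroup_smul]
        exact ⟨b, hb, by simp [MulAut.conj_apply]⟩
      have h2 := h _ h1
      simp only [MulAut.smul_def, MulAut.conj_inv_apply]
      have h3 : b * (g⁻¹ * a * g) = g⁻¹ * ((g * b * g⁻¹) * a) * g := by group
      have h4 : g⁻¹ * a * g * b = g⁻¹ * (a * (g * b * g⁻¹)) * g := by group
      rw [h3, h4, h2]
    · intro h b hb
      rw [Sylow.coe_subgroup_smul] at hb
      obtain ⟨c, hc, rfl⟩ := hb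
      have h2 := h c hc
      simp only [MulAut.smul_def, MulAut.conj_inv_apply] at h2
      change (g * c * g⁻¹) * a = a * (g * c * g⁻¹)
      have h3 : (g * c * g⁻¹) * a = g * (c * (g⁻¹ * a * g)) * g⁻¹ := by group
      have h4 : a * (g * c * g⁻¹) = g * ((g⁻¹ * a * g) * c) * g⁻¹ := by group
      rw [h3, h4, h2]
  rw [h]
  exact Nat.card_congr (Subgroup.equivSMul (MulAut.conj g) _).toEquiv.symm

variable (G) in
/-- Elements centralizing a Sylow `p`-subgroup. -/
def Uset (p : ℕ) : Set G := {g | ∃ P : Sylow p G, (P : Subgroup G) ≤ cent g}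

theorem one_mem_Uset {p : ℕ} [Fact p.Prime] : (1 : G) ∈ Uset G p := by
  obtain ⟨P⟩ := (inferInstance : Nonempty (Sylow p G))
  refine ⟨P, fun a _ => ?_⟩
  rw [mem_cent_iff]
  simp

/-- The count. -/
theorem ncard_Uset_le {p : ℕ} [Fact p.Prime] (P : Sylow p G) :
    (Uset G p).ncard + Nat.card (Sylow p G) ≤
      1 + Nat.card (Sylow p G) * Nat.card (centralizer ((P : Subgroup G) : Set G)) := by
  classical
  haveI := Fintype.ofFinite G
  haveI := Fintype.ofFinite (Sylow p G)
  set c := Nat.card (centralizer ((P : Subgroup G) : Set G)) with hc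
  let F : Sylow p G → Finset G := fun Q => ((centralizer ((Q : Subgroup G) : Set G) : Set G).toFinset.erase 1)
  have hF : ∀ Q : Sylow p G, (F Q).card + 1 = c := by
    intro Q
    obtain ⟨g, rfl⟩ := MulAction.exists_smul_eq G P Q
    have h1 : (1 : G) ∈ (centralizer (((g • P : Sylow p G) : Subgroup G) : Set G) : Set G).toFinset := by
      simp [one_mem]
    have h2 := Finset.card_erase_add_one h1
    rw [h2, hc, ← card_centralizer_smul P g, Set.toFinset_card, Nat.card_eq_fintype_card]
    rfl
  have hsub : (Uset G p).toFinset.erase 1 ⊆ Finset.univ.biUnion F := by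
    intro g hg
    rw [Finset.mem_erase, Set.mem_toFinset] at hg
    obtain ⟨hg1, Q, hQ⟩ := hg
    refine Finset.mem_biUnion.2 ⟨Q, Finset.mem_univ _, ?_⟩
    rw [Finset.mem_erase, Set.mem_toFinset]
    refine ⟨hg1, ?_⟩
    rw [SetLike.mem_coe, Subgroup.mem_centralizer_iff]
    intro a ha
    exact mem_cent_iff.1 (hQ ha) |>.symm
  have h1 := (Finset.card_le_card hsub).trans Finset.card_biUnion_le
  have h2 : (Uset G p).toFinset.card = ((Uset G p).toFinset.erase 1).card + 1 :=
    (Finset.card_erase_add_one (Set.mem_toFinset.2 one_mem_Uset)).symm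
  have h3 : ∑ Q : Sylow p G, (F Q).card + Nat.card (Sylow p G) =
      Nat.card (Sylow p G) * c := by
    rw [Nat.card_eq_fintype_card (α := Sylow p G), ← Finset.card_univ]
    rw [← Finset.sum_const_nat (m := c) (f := fun Q : Sylow p G => (F Q).card + 1) (s := Finset.univ)
      (fun Q _ => hF Q), Finset.sum_add_distrib]
    simp
  have h4 : (Uset G p).ncard = (Uset G p).toFinset.card := Set.ncard_eq_toFinset_card' _
  omega

/-- Count against the order of the group, when `N(P)` is larger than `C(P)`. -/
theorem two_mul_le {p : ℕ} [Fact p.Prime] (P : Sylow p G)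
    (h : ¬ normalizer ((P : Subgroup G) : Set G) ≤ centralizer ((P : Subgroup G) : Set G)) :
    2 * (Nat.card (Sylow p G) * Nat.card (centralizer ((P : Subgroup G) : Set G))) ≤ Nat.card G := by
  have h1 : Nat.card (Sylow p G) = (normalizer ((P : Subgroup G) : Set G)).index :=
    Sylow.card_eq_index_normalizer P
  have h2 := (normalizer ((P : Subgroup G) : Set G)).card_mul_index
  have hle : centralizer ((P : Subgroup G) : Set G) ≤ normalizer ((P : Subgroup G) : Set G) :=
    Subgroup.centralizer_le_normalizer _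
  have h3 := Subgroup.card_dvd_of_le hle
  obtain ⟨k, hk⟩ := h3
  have hk2 : 2 ≤ k := by
    by_contra hlt
    have hpos : 0 < Nat.card (normalizer ((P : Subgroup G) : Set G)) := Nat.card_pos
    have hk1 : k = 1 := by
      rcases k with _ | _ | k
      · rw [Nat.mul_zero] at hk
        omega
      · rfl
      · omega
    rw [hk1, mul_one] at hk
    apply h
    have := (Subgroup.eq_of_le_of_card_ge hle (le_of_eq hk)).symm
    exact this.le
  rw [← h2, h1, hk]
  have hc : 0 < Nat.card (centralizer ((P : Subgroup G) : Set G)) := Nat.card_pos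
  nlinarith [Nat.zero_le (normalizer ((P : Subgroup G) : Set G)).index,
    Nat.mul_le_mul_left ((normalizer ((P : Subgroup G) : Set G)).index * Nat.card (centralizer ((P : Subgroup G) : Set G))) hk2]

/-- **Covering lemma**: if every element centralizes a Sylow `p`- or `q`-subgroup, then `N(P) = C(P)` or
`N(Q) = C(Q)`. -/
theorem normalizer_le_of_cover {p q : ℕ} [Fact p.Prime] [Fact q.Prime] (P : Sylow p G) (Q : Sylow q G)
    (hcover : ∀ g : G, g ∈ Uset G p ∨ g ∈ Uset G q) :
    normalizer ((P : Subgroup G) : Set G) ≤ centralizer ((P : Subgroup G) : Set G) ∨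
      normalizer ((Q : Subgroup G) : Set G) ≤ centralizer ((Q : Subgroup G) : Set G) := by
  by_contra hno
  push Not at hno
  obtain ⟨h1, h2⟩ := hno
  have c1 := ncard_Uset_le P
  have c2 := ncard_Uset_le Q
  have t1 := two_mul_le P h1
  have t2 := two_mul_le Q h2
  have hU : Uset G p ∪ Uset G q = Set.univ := Set.eq_univ_of_forall fun g => hcover g
  have hadd := Set.ncard_union_add_ncard_inter (Uset G p) (Uset G q) (Set.toFinite _) (Set.toFinite _)
  rw [hU, Set.ncard_univ] at hadd
  have hinter : 1 ≤ (Uset G p ∩ Uset G q).ncard := by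
    exact (Set.ncard_pos (Set.toFinite _)).2 ⟨1, one_mem_Uset, one_mem_Uset⟩
  have n1 : 1 ≤ Nat.card (Sylow p G) := Nat.one_le_iff_ne_zero.2 Nat.card_pos.ne'
  have n2 : 1 ≤ Nat.card (Sylow q G) := Nat.one_le_iff_ne_zero.2 Nat.card_pos.ne'
  omega

/-- A pair of primes not dividing the same class size. -/
theorem normalizer_le_of_not_dvd {p q : ℕ} [Fact p.Prime] [Fact q.Prime] (P : Sylow p G) (Q : Sylow q G)
    (hpq : p ≠ q) (h : ∀ x : G, ¬ p * q ∣ cs x) :
    normalizer ((P : Subgroup G) : Set G) ≤ centralizer ((P : Subgroup G) : Set G) ∨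
      normalizer ((Q : Subgroup G) : Set G) ≤ centralizer ((Q : Subgroup G) : Set G) := by
  apply normalizer_le_of_cover
  intro g
  by_cases hg : p ∣ cs g
  · right
    apply exists_sylow_le_cent
    intro hq
    apply h g
    exact ((Nat.coprime_primes Fact.out Fact.out).2 hpq).mul_dvd_of_dvd_of_dvd hg hq
  · left
    exact exists_sylow_le_cent hg

end Cfsg.Agent.Lib.ClassSize.Cover
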