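/-
If `4` divides no class size then `G` is solvable (helper4), modulo the odd order theorem.
A minimal counterexample is simple.  Its Sylow `2`-subgroup `P` has exponent `2` (the subgroups of
index at most `2` of the conjugates of `P` meet every class, so their intersection is central).
By Burnside's lemma the number `c` of classes of involutions satisfies `|P| ≤ 2 c + 1`; by Burnside's
fusion lemma and the `Z*`-theorem every class of involutions meets `P` in at least `3` elements, so
`3 c + 1 ≤ |P|`.
-/
import Mathlib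
import Cfsg.Agent.S0215
import Cfsg.Agent.Lib.Basic.JordanCover

set_option autoImplicit false
set_option linter.unusedSectionVars false
set_option linter.unusedVariables false
set_option linter.style.haveILetI false

namespace Cfsg.Agent.Lib.ClassSize.NoFour

open Subgroup

universe u

section Inherit

variable {G : Type u} [Group G] [Finite G]

/-- The hypothesis. -/
def NF (G : Type u) [Group G] : Prop :=
  ∀ x : G, ¬ 4 ∣ (centralizer ({x} : Set G)).index

theorem relIndex_dvd (C N : Subgroup G) [N.Normal] : C.relIndex N ∣ C.index := by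
  obtain ⟨m, hm⟩ := relIndex_dvd_index_of_normal N C
  refine ⟨m, ?_⟩
  have h1 := C.card_mul_index
  have h2 := N.card_mul_index
  have h3 := card_mul_index (C.subgroupOf N)
  have h4 := card_mul_index (N.subgroupOf C)
  have h5 : Nat.card (C.subgroupOf N) = Nat.card (N.subgroupOf C) :=
    Nat.card_congr ⟨fun x => ⟨⟨x.1.1, mem_subgroupOf.mp x.2⟩, mem_subgroupOf.mpr x.1.2⟩,
      fun x => ⟨⟨x.1.1, mem_subgroupOf.mp x.2⟩, mem_subgroupOf.mpr x.1.2⟩,
      fun _ => rfl, fun _ => rfl⟩
  rw [hm] at h2
  show C.index = (C.subgroupOf N).index * m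
  have hpos : Nat.card C ≠ 0 := Nat.card_pos.ne'
  apply Nat.eq_of_mul_eq_mul_left (Nat.pos_of_ne_zero hpos)
  rw [h1, ← h2, ← h3]
  have h6 : N.relIndex C = (N.subgroupOf C).index := rfl
  rw [h6, mul_assoc]
  have h7 : Nat.card C = Nat.card (N.subgroupOf C) * (N.subgroupOf C).index := h4.symm
  rw [h7, h5]
  ring

theorem NF.normal (h : NF G) (N : Subgroup G) [hN : N.Normal] : NF N := by
  intro x hx
  apply h (x : G)
  have e : centralizer ({x} : Set N) = (centralizer ({(x : G)} : Set G)).subgroupOf N := by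
    ext y
    rw [mem_subgroupOf, mem_centralizer_singleton_iff, mem_centralizer_singleton_iff]
    exact Subtype.ext_iff
  rw [e] at hx
  exact hx.trans (relIndex_dvd _ N)

theorem NF.quot (h : NF G) (N : Subgroup G) [hN : N.Normal] : NF (G ⧸ N) := by
  intro x hx
  obtain ⟨y, rfl⟩ := QuotientGroup.mk_surjective x
  apply h y
  refine hx.trans ?_
  have h1 : (centralizer ({(y : G ⧸ N)} : Set (G ⧸ N))).index
      = ((centralizer ({(y : G ⧸ N)} : Set (G ⧸ N))).comap (QuotientGroup.mk' N)).index :=
    (index_comap_of_surjective _ (QuotientGroup.mk'_surjective N)).symm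
  rw [h1]
  apply index_dvd_of_le
  intro z hz
  rw [mem_comap, mem_centralizer_singleton_iff]
  rw [mem_centralizer_singleton_iff] at hz
  show ((z : G ⧸ N)) * (y : G ⧸ N) = (y : G ⧸ N) * z
  rw [← QuotientGroup.mk_mul, ← QuotientGroup.mk_mul, hz]

end Inherit

section Simple

variable {G : Type u} [Group G] [Finite G] (P : Sylow 2 G)

/-- Each element has a conjugate which centralizes a subgroup of index at most `2` of `P`. -/
theorem exists_conj_cent (h : NF G) (x : G) :
    ∃ g : G, ∃ H : Subgroup G, H ≤ (P : Subgroup G) ∧ H.relIndex (P : Subgroup G) ≤ 2 ∧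
      ∀ a ∈ H, a * (g * x * g⁻¹) = (g * x * g⁻¹) * a := by
  classical
  set C : Subgroup G := centralizer ({x} : Set G) with hC
  let R : Sylow 2 C := default
  set R₀ : Subgroup G := (R : Subgroup C).map C.subtype with hR₀
  have hR₀p : IsPGroup 2 R₀ := R.isPGroup'.map _
  obtain ⟨P', hP'⟩ := hR₀p.exists_le_sylow
  obtain ⟨g, hg⟩ := MulAction.exists_smul_eq G P' P
  set H : Subgroup G := R₀.map (MulAut.conj g).toMonoidHom with hH
  have hHP : H ≤ (P : Subgroup G) := by
    rw [← hg, Sylow.coe_subgroup_smul]
    exact Subgroup.map_mono hP'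
  have hcardH : Nat.card H = Nat.card R₀ :=
    Subgroup.card_map_of_injective (MulEquiv.injective _)
  have hcardR : Nat.card R₀ = Nat.card (R : Subgroup C) :=
    Subgroup.card_map_of_injective C.subtype_injective
  refine ⟨g, H, hHP, ?_, ?_⟩
  · -- the index
    have h1 : Nat.card (P : Subgroup G) = 2 ^ (Nat.card G).factorization 2 := P.card_eq_multiplicity
    have h2 : Nat.card (R : Subgroup C) = 2 ^ (Nat.card C).factorization 2 := R.card_eq_multiplicity
    have h3 := C.card_mul_index
    have hC0 : Nat.card C ≠ 0 := Nat.card_pos.ne'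
    have hi0 : C.index ≠ 0 := Subgroup.index_ne_zero_of_finite
    have h4 : (Nat.card G).factorization 2 = (Nat.card C).factorization 2 + C.index.factorization 2 := by
      rw [← h3, Nat.factorization_mul hC0 hi0]
      rfl
    have h5 : C.index.factorization 2 ≤ 1 := by
      by_contra hcon
      push Not at hcon
      apply h x
      have h6 : 2 ^ 2 ∣ C.index := (Nat.Prime.pow_dvd_iff_le_factorization Nat.prime_two hi0).mpr hcon
      simpa using h6
    have h7 := card_mul_index (H.subgroupOf (P : Subgroup G))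
    have h8 : Nat.card (H.subgroupOf (P : Subgroup G)) = Nat.card H :=
      Nat.card_congr (subgroupOfEquivOfLe hHP).toEquiv
    rw [h8, hcardH, hcardR, h2, h1, h4, pow_add] at h7
    have h9 : (H.subgroupOf (P : Subgroup G)).index = 2 ^ C.index.factorization 2 :=
      Nat.eq_of_mul_eq_mul_left (by positivity) h7
    show (H.subgroupOf (P : Subgroup G)).index ≤ 2
    rw [h9]
    calc 2 ^ C.index.factorization 2 ≤ 2 ^ 1 := Nat.pow_le_pow_right (by norm_num) h5
      _ = 2 := by norm_num
  · rintro _ ⟨_, ⟨r, hr, rfl⟩, rfl⟩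
    have hrc : (r : G) * x = x * r := by
      have := mem_centralizer_singleton_iff.mp r.2
      exact this
    show g * (r : G) * g⁻¹ * (g * x * g⁻¹) = g * x * g⁻¹ * (g * (r : G) * g⁻¹)
    calc g * (r : G) * g⁻¹ * (g * x * g⁻¹) = g * ((r : G) * x) * g⁻¹ := by group
      _ = g * (x * (r : G)) * g⁻¹ := by rw [hrc]
      _ = g * x * g⁻¹ * (g * (r : G) * g⁻¹) := by group

/-- The Sylow subgroup has exponent two, if the centre is trivial. -/
theorem sq_eq_one (h : NF G) (hZ : center G = ⊥) {y : G} (hy : y ∈ (P : Subgroup G)) :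
    y * y = 1 := by
  classical
  set D : Subgroup G := ⨅ H : {H : Subgroup G // H ≤ (P : Subgroup G) ∧
    H.relIndex (P : Subgroup G) ≤ 2}, H.1 with hD
  have hcent : centralizer (D : Set G) = ⊤ := by
    apply Cfsg.Agent.Lib.Basic.JordanCover.eq_top_of_forall_conj_mem
    intro x
    obtain ⟨g, H, hH, hH2, hc⟩ := exists_conj_cent P h x
    refine ⟨g, ?_⟩
    rw [mem_centralizer_iff]
    intro a ha
    have ha' : a ∈ H := by
      have := (Subgroup.mem_iInf.mp ha) ⟨H, hH, hH2⟩
      exact this
    exact hc a ha'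
  have hDZ : D ≤ center G := by
    intro d hd
    rw [Subgroup.mem_center_iff]
    intro z
    have hz : z ∈ centralizer (D : Set G) := by rw [hcent]; trivial
    exact (mem_centralizer_iff.mp hz d hd).symm
  have hD1 : D = ⊥ := by
    rw [eq_bot_iff, ← hZ]
    exact hDZ
  have hmem : y * y ∈ D := by
    rw [hD, Subgroup.mem_iInf]
    rintro ⟨H, hH, hH2⟩
    show y * y ∈ H
    have hi : (H.subgroupOf (P : Subgroup G)).index ≤ 2 := hH2
    have hi0 : (H.subgroupOf (P : Subgroup G)).index ≠ 0 := Subgroup.index_ne_zero_of_finite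
    have hcase : (H.subgroupOf (P : Subgroup G)).index = 1 ∨ (H.subgroupOf (P : Subgroup G)).index = 2 := by
      omega
    rcases hcase with h1 | h2
    · have h3 := Subgroup.index_eq_one.mp h1
      have h4 : (⟨y, hy⟩ : (P : Subgroup G)) ∈ H.subgroupOf (P : Subgroup G) := by rw [h3]; trivial
      have h5 : y ∈ H := h4
      exact H.mul_mem h5 h5
    · have h3 := Subgroup.mul_self_mem_of_index_two h2 (⟨y, hy⟩ : (P : Subgroup G))
      exact h3
  rw [hD1] at hmem
  simpa using hmem

/-- The involutions. -/
def Inv2 (G : Type u) [Group G] : Type u := {t : G // t * t = 1 ∧ t ≠ 1}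

/-- The conjugation action on the involutions. -/
instance : MulAction G (Inv2 G) where
  smul g t := ⟨g * t.1 * g⁻¹, by
    have h := t.2.1
    calc g * t.1 * g⁻¹ * (g * t.1 * g⁻¹) = g * (t.1 * t.1) * g⁻¹ := by group
      _ = 1 := by rw [h]; group, by
    intro h
    apply t.2.2
    have e : t.1 = g⁻¹ * (g * t.1 * g⁻¹) * g := by group
    rw [e, h]
    group⟩
  one_smul t := Subtype.ext (by
    show 1 * t.1 * 1⁻¹ = t.1
    group)
  mul_smul a b t := Subtype.ext (by
    show (a * b) * t.1 * (a * b)⁻¹ = a * (b * t.1 * b⁻¹) * a⁻¹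
    group)

theorem smul_val (g : G) (t : Inv2 G) : (g • t).1 = g * t.1 * g⁻¹ := rfl

end Simple

section Main

variable {G : Type u} [Group G] [Finite G]

open MulAction

/-- **The contradiction for a simple group.** -/
theorem false_of_simple [hS : IsSimpleGroup G] (hFT : Odd (Nat.card G) → Group.IsSolvable G)
    (hnc : ∃ a b : G, a * b ≠ b * a) (h : NF G) : False := by
  classical
  haveI : Fintype G := Fintype.ofFinite G
  -- the centre is trivial
  have hZ : center G = ⊥ := by
    rcases (inferInstance : (center G).Normal).eq_bot_or_eq_top with h0 | h0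
    · exact h0
    · exfalso
      obtain ⟨a, b, hab⟩ := hnc
      have : a ∈ center G := by rw [h0]; trivial
      exact hab ((Subgroup.mem_center_iff.mp this b).symm)
  have hsolv : ¬ Group.IsSolvable G := by
    intro h0
    obtain ⟨a, b, hab⟩ := hnc
    exact hab (IsSimpleGroup.comm_iff_isSolvable.mpr h0 a b)
  have heven : ¬ Odd (Nat.card G) := fun h0 => hsolv (hFT h0)
  haveI : Fact (Nat.Prime 2) := ⟨Nat.prime_two⟩
  let P : Sylow 2 G := default
  have hexp : ∀ y ∈ (P : Subgroup G), y * y = 1 := fun y hy => sq_eq_one P h hZ hy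
  have hPcomm : ∀ a ∈ (P : Subgroup G), ∀ b ∈ (P : Subgroup G), a * b = b * a := by
    intro a ha b hb
    have h1 := hexp _ ((P : Subgroup G).mul_mem ha hb)
    have h2 := hexp a ha
    have h3 := hexp b hb
    calc a * b = a * (a * b * (a * b)) * b := by rw [h1]; group
      _ = (a * a) * b * a * (b * b) := by group
      _ = b * a := by rw [h2, h3]; group
  haveI : IsMulCommutative (P : Subgroup G) := ⟨⟨fun a b => Subtype.ext (hPcomm a a.2 b b.2)⟩⟩
  set a : ℕ := Nat.card (P : Subgroup G) with ha
  have ha2 : 2 ≤ a := by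
    have h1 : a ≠ 1 := by
      intro h1
      apply heven
      have h2 := P.card_eq_multiplicity
      rw [← ha, h1] at h2
      have h3 : (Nat.card G).factorization 2 = 0 := by
        have h4 : 2 ^ (Nat.card G).factorization 2 = 2 ^ 0 := by simpa using h2.symm
        exact Nat.pow_right_injective (le_refl 2) h4
      have h5 : ¬ 2 ∣ Nat.card G := by
        intro hd
        have := (Nat.Prime.dvd_iff_one_le_factorization Nat.prime_two Nat.card_pos.ne').mp hd
        omega
      exact Nat.odd_iff.mpr (Nat.two_dvd_ne_zero.mp h5)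
    have h2 : 0 < a := Nat.card_pos
    omega
  haveI : Finite (Inv2 G) := inferInstanceAs (Finite {t : G // t * t = 1 ∧ t ≠ 1})
  haveI : Fintype (Inv2 G) := Fintype.ofFinite _
  haveI : ∀ g : G, Fintype (fixedBy (Inv2 G) g) := fun _ => Fintype.ofFinite _
  haveI : Fintype (orbitRel.Quotient G (Inv2 G)) := Fintype.ofFinite _
  have hB := sum_card_fixedBy_eq_card_orbits_mul_card_group G (Inv2 G)
  set c : ℕ := Fintype.card (orbitRel.Quotient G (Inv2 G)) with hc
  -- an injection from the nontrivial elements of an elementary subgroup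
  have hinj : ∀ (H : Subgroup G), H ≤ (P : Subgroup G) → ∀ (g x : G),
      (∀ u ∈ H, u * (g * x * g⁻¹) = (g * x * g⁻¹) * u) →
      Nat.card H ≤ Fintype.card (fixedBy (Inv2 G) x) + 1 := by
    intro H hH g x hcx
    have hmem : ∀ u : {u : H // u ≠ 1}, (g⁻¹ * (u.1 : G) * g) * (g⁻¹ * (u.1 : G) * g) = 1 ∧
        g⁻¹ * (u.1 : G) * g ≠ 1 := by
      intro u
      constructor
      · calc (g⁻¹ * (u.1 : G) * g) * (g⁻¹ * (u.1 : G) * g) = g⁻¹ * ((u.1 : G) * (u.1 : G)) * g := by group
          _ = 1 := by rw [hexp _ (hH u.1.2)]; group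
      · intro h0
        apply u.2
        apply Subtype.ext
        have e : (u.1 : G) = g * (g⁻¹ * (u.1 : G) * g) * g⁻¹ := by group
        rw [e, h0]
        simp
    let φ : {u : H // u ≠ 1} → fixedBy (Inv2 G) x := fun u =>
      ⟨(⟨g⁻¹ * (u.1 : G) * g, hmem u⟩ : Inv2 G), by
        refine mem_fixedBy.mpr (Subtype.ext ?_)
        have h1 := hcx _ u.1.2
        show x * (g⁻¹ * (u.1 : G) * g) * x⁻¹ = g⁻¹ * (u.1 : G) * g
        have h2 : (g⁻¹ * (u.1 : G) * g) * x = x * (g⁻¹ * (u.1 : G) * g) := by
          calc (g⁻¹ * (u.1 : G) * g) * x = g⁻¹ * ((u.1 : G) * (g * x * g⁻¹)) * g := by group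
            _ = g⁻¹ * ((g * x * g⁻¹) * (u.1 : G)) * g := by rw [h1]
            _ = x * (g⁻¹ * (u.1 : G) * g) := by group
        rw [← h2]
        group⟩
    have hφ : Function.Injective φ := by
      intro u v huv
      have h1 : g⁻¹ * (u.1 : G) * g = g⁻¹ * (v.1 : G) * g :=
        congrArg (fun z : fixedBy (Inv2 G) x => (z.1).1) huv
      apply Subtype.ext
      apply Subtype.ext
      have h2 : (u.1 : G) = g * (g⁻¹ * (u.1 : G) * g) * g⁻¹ := by group
      have h3 : (v.1 : G) = g * (g⁻¹ * (v.1 : G) * g) * g⁻¹ := by group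
      rw [h2, h1, ← h3]
    have h1 := Nat.card_le_card_of_injective φ hφ
    rw [Nat.card_eq_fintype_card (α := fixedBy (Inv2 G) x)] at h1
    have h2 : Nat.card {u : H // u ≠ 1} + 1 = Nat.card H := by
      haveI : Fintype H := Fintype.ofFinite _
      rw [Nat.card_eq_fintype_card, Nat.card_eq_fintype_card, Fintype.card_subtype_compl,
        Fintype.card_subtype_eq]
      have : 0 < Fintype.card H := Fintype.card_pos
      omega
    omega
  have hfix : ∀ x : G, a ≤ 2 * Fintype.card (fixedBy (Inv2 G) x) + 2 := by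
    intro x
    obtain ⟨g, H, hH, hH2, hcx⟩ := exists_conj_cent P h x
    have h1 := hinj H hH g x hcx
    have h2 := card_mul_index (H.subgroupOf (P : Subgroup G))
    have h3 : Nat.card (H.subgroupOf (P : Subgroup G)) = Nat.card H :=
      Nat.card_congr (subgroupOfEquivOfLe hH).toEquiv
    rw [h3] at h2
    have h4 : (H.subgroupOf (P : Subgroup G)).index ≤ 2 := hH2
    have h5 : a ≤ Nat.card H * 2 := by
      rw [ha, ← h2]
      exact Nat.mul_le_mul_left _ h4
    omega
  have hfix1 : a ≤ Fintype.card (fixedBy (Inv2 G) (1 : G)) + 1 :=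
    hinj (P : Subgroup G) le_rfl 1 1 (fun u _ => by simp)
  have hlow : a * Fintype.card G + a ≤ 2 * (c * Fintype.card G) + 2 * Fintype.card G := by
    have h1 : ∑ x : G, (a + if x = 1 then a else 0)
        ≤ ∑ x : G, (2 * Fintype.card (fixedBy (Inv2 G) x) + 2) := by
      refine Finset.sum_le_sum fun x _ => ?_
      by_cases hx : x = 1
      · subst hx
        simp only [if_true]
        omega
      · simp only [hx, if_false]
        have := hfix x
        omega
    rw [Finset.sum_add_distrib, Finset.sum_add_distrib, ← Finset.mul_sum, hB] at h1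
    simp only [Finset.sum_const, Finset.card_univ, smul_eq_mul, Finset.sum_ite_eq', Finset.mem_univ,
      if_true] at h1
    nlinarith
  have hG0 : 0 < Fintype.card G := Fintype.card_pos
  have hup : a ≤ 2 * c + 1 := by
    have h1 : a * Fintype.card G < (2 * c + 2) * Fintype.card G := by nlinarith
    have h2 := Nat.lt_of_mul_lt_mul_right h1
    omega
  -- the elements of `P`
  let S : Finset (Inv2 G) := Finset.univ.filter (fun t => t.1 ∈ (P : Subgroup G))
  have hS : S.card + 1 ≤ a := by
    let ψ : {t : Inv2 G // t.1 ∈ (P : Subgroup G)} → {u : (P : Subgroup G) // u ≠ 1} := fun t =>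
      ⟨⟨t.1.1, t.2⟩, fun h0 => t.1.2.2 (congrArg Subtype.val h0)⟩
    have hψ : Function.Injective ψ := by
      intro t t' htt
      apply Subtype.ext
      apply Subtype.ext
      exact congrArg (fun z : {u : (P : Subgroup G) // u ≠ 1} => ((z.1 : (P : Subgroup G)) : G)) htt
    have h1 := Nat.card_le_card_of_injective ψ hψ
    have h2 : Nat.card {u : (P : Subgroup G) // u ≠ 1} + 1 = a := by
      haveI : Fintype (P : Subgroup G) := Fintype.ofFinite _
      rw [ha, Nat.card_eq_fintype_card, Nat.card_eq_fintype_card, Fintype.card_subtype_compl,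
        Fintype.card_subtype_eq]
      have : 0 < Fintype.card (P : Subgroup G) := Fintype.card_pos
      omega
    have h3 : Nat.card {t : Inv2 G // t.1 ∈ (P : Subgroup G)} = S.card := by
      rw [Nat.card_eq_fintype_card, Fintype.card_subtype]
    omega
  -- every class meets `P` in at least three elements
  have hfib : ∀ q : orbitRel.Quotient G (Inv2 G),
      3 ≤ (S.filter (fun t => (Quotient.mk'' t : orbitRel.Quotient G (Inv2 G)) = q)).card := by
    intro q
    obtain ⟨t₀, rfl⟩ := Quotient.mk''_surjective q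
    have hiff : ∀ t s : Inv2 G, (Quotient.mk'' t : orbitRel.Quotient G (Inv2 G)) = Quotient.mk'' s ↔
        ∃ g : G, g • s = t := by
      intro t s
      rw [Quotient.eq'', orbitRel_apply]
      rfl
    have ht2 : IsPGroup 2 (zpowers t₀.1) := by
      apply IsPGroup.of_card (n := 1)
      rw [Nat.card_zpowers, pow_one]
      exact orderOf_eq_prime (by rw [sq]; exact t₀.2.1) t₀.2.2
    obtain ⟨P', hP'⟩ := ht2.exists_le_sylow
    obtain ⟨g, hg⟩ := MulAction.exists_smul_eq G P' P
    let s₀ : Inv2 G := g • t₀
    have hs₀ : s₀.1 ∈ (P : Subgroup G) := by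
      rw [← hg, Sylow.coe_subgroup_smul]
      exact ⟨t₀.1, hP' (mem_zpowers _), rfl⟩
    have hq : (Quotient.mk'' t₀ : orbitRel.Quotient G (Inv2 G)) = Quotient.mk'' s₀ :=
      (hiff t₀ s₀).mpr ⟨g⁻¹, by
        show g⁻¹ • g • t₀ = t₀
        simp⟩
    rw [hq]
    set F := S.filter (fun t => (Quotient.mk'' t : orbitRel.Quotient G (Inv2 G)) = Quotient.mk'' s₀)
      with hF
    have hmemF : ∀ t : Inv2 G, t ∈ F ↔ t.1 ∈ (P : Subgroup G) ∧ ∃ g : G, g • s₀ = t := by
      intro t
      rw [hF, Finset.mem_filter, hiff]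
      simp [S]
    have hs₀F : s₀ ∈ F := (hmemF s₀).mpr ⟨hs₀, 1, one_smul _ _⟩
    have hpos : 0 < F.card := Finset.card_pos.mpr ⟨_, hs₀F⟩
    let N : Subgroup G := normalizer ((P : Subgroup G) : Set G)
    have horb : (F : Set (Inv2 G)) = orbit N s₀ := by
      ext t
      rw [Finset.mem_coe, hmemF]
      constructor
      · rintro ⟨htP, g', rfl⟩
        have h1 : (g'⁻¹)⁻¹ * s₀.1 * g'⁻¹ ∈ (P : Subgroup G) := by
          have : (g' • s₀).1 = (g'⁻¹)⁻¹ * s₀.1 * g'⁻¹ := by
            rw [smul_val, inv_inv]
          rw [← this]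
          exact htP
        obtain ⟨n, hn, hne⟩ := P.conj_eq_normalizer_conj_of_mem s₀.1 g'⁻¹ hs₀ h1
        refine ⟨⟨n⁻¹, inv_mem hn⟩, ?_⟩
        apply Subtype.ext
        show (n⁻¹ : G) * s₀.1 * (n⁻¹)⁻¹ = g' * s₀.1 * g'⁻¹
        rw [inv_inv] at hne
        rw [hne, inv_inv]
      · rintro ⟨n, rfl⟩
        refine ⟨?_, (n : G), rfl⟩
        show (n : G) * s₀.1 * (n : G)⁻¹ ∈ (P : Subgroup G)
        exact (mem_normalizer_iff.mp n.2 s₀.1).mp hs₀
    have hcard : F.card = (stabilizer N s₀).index := by
      rw [index_stabilizer, ← horb, Set.ncard_coe_finset]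
    have hnd : ¬ 2 ∣ F.card := by
      rw [hcard]
      intro hd
      apply P.not_dvd_index
      have hle : (P : Subgroup G).subgroupOf N ≤ stabilizer N s₀ := by
        intro y hy
        rw [mem_stabilizer_iff]
        apply Subtype.ext
        have hy' : (y : G) ∈ (P : Subgroup G) := mem_subgroupOf.mp hy
        show (y : G) * s₀.1 * (y : G)⁻¹ = s₀.1
        rw [hPcomm _ hy' _ hs₀]
        group
      have h1 : (stabilizer N s₀).index ∣ ((P : Subgroup G).subgroupOf N).index :=
        index_dvd_of_le hle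
      exact hd.trans (h1.trans (relIndex_dvd_index_of_le Subgroup.le_normalizer))
    have hne1 : F.card ≠ 1 := by
      intro h1
      have hiso : ∀ g : G, g * s₀.1 * g⁻¹ ∈ (P : Subgroup G) → g * s₀.1 * g⁻¹ = s₀.1 := by
        intro g' hg'
        have h2 : g' • s₀ ∈ F := (hmemF _).mpr ⟨hg', g', rfl⟩
        have := Finset.card_le_one.mp h1.le _ h2 _ hs₀F
        exact congrArg Subtype.val this
      have hord : orderOf s₀.1 = 2 :=
        orderOf_eq_prime (by rw [sq]; exact s₀.2.1) s₀.2.2
      obtain ⟨N₀, hN₀, hodd, hcomm⟩ := Cfsg.Agent.S0215.result P s₀.1 hord hs₀ hiso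
      rcases hN₀.eq_bot_or_eq_top with h0 | h0
      · have hz : s₀.1 ∈ center G := by
          rw [mem_center_iff]
          intro z
          have h3 := hcomm z
          rw [h0, mem_bot] at h3
          have h4 : s₀.1 * z * s₀.1⁻¹ = z := mul_inv_eq_one.mp h3
          calc z * s₀.1 = (s₀.1 * z * s₀.1⁻¹) * s₀.1 := by rw [h4]
            _ = s₀.1 * z := by group
        rw [hZ, mem_bot] at hz
        exact s₀.2.2 hz
      · apply heven
        rw [h0] at hodd
        simpa [Subgroup.card_top] using hodd
    omega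
  have hc3 : 3 * c ≤ S.card := by
    have h1 := Finset.mul_card_image_le_card_of_maps_to (s := S)
      (t := (Finset.univ : Finset (orbitRel.Quotient G (Inv2 G))))
      (f := fun t => (Quotient.mk'' t : orbitRel.Quotient G (Inv2 G)))
      (fun _ _ => Finset.mem_univ _) 3 (fun q _ => hfib q)
    simpa [hc, Finset.card_univ] using h1
  omega

/-- **If `4` divides no class size, the group is solvable**, modulo the odd order theorem. -/
theorem solvable_of_nf (hFT : ∀ (K : Type u) [Group K] [Finite K], Odd (Nat.card K) → Group.IsSolvable K) :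
    ∀ (n : ℕ) (G : Type u) [Group G] [Finite G], Nat.card G = n → NF G → Group.IsSolvable G := by
  intro n
  induction n using Nat.strong_induction_on with
  | _ n ih =>
    intro G _ _ hn h
    by_cases hN : ∃ N : Subgroup G, N.Normal ∧ N ≠ ⊥ ∧ N ≠ ⊤
    · obtain ⟨N, hNn, hN1, hN2⟩ := hN
      haveI := hNn
      have h1 : Nat.card N < n := by
        rw [← hn]
        have h3 := N.card_mul_index
        have h4 : N.index ≠ 1 := fun h0 => hN2 (Subgroup.index_eq_one.mp h0)
        have h5 : N.index ≠ 0 := Subgroup.index_ne_zero_of_finite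
        have h6 : 0 < Nat.card N := Nat.card_pos
        have h7 : 2 ≤ N.index := by omega
        rw [← h3]
        nlinarith
      have h2 : Nat.card (G ⧸ N) < n := by
        rw [← hn, ← Subgroup.index_eq_card]
        have h3 := N.card_mul_index
        have h4 : 1 < Nat.card N := by
          rw [Subgroup.one_lt_card_iff_ne_bot]
          exact hN1
        have h5 : 0 < N.index := Nat.pos_of_ne_zero Subgroup.index_ne_zero_of_finite
        rw [← h3]
        nlinarith
      haveI := ih _ h1 N rfl (h.normal N)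
      haveI := ih _ h2 (G ⧸ N) rfl (h.quot N)
      exact Group.isSolvable_of_ker_le_range N.subtype (QuotientGroup.mk' N) (by
        rw [QuotientGroup.ker_mk', Subgroup.range_subtype])
    · push Not at hN
      by_cases hnt : Nontrivial G
      · haveI : IsSimpleGroup G := ⟨fun N hNn => by
          by_cases h0 : N = ⊥
          · exact Or.inl h0
          · exact Or.inr (hN N hNn h0)⟩
        by_cases hc : ∀ a b : G, a * b = b * a
        · exact IsSimpleGroup.comm_iff_isSolvable.mp hc
        · push Not at hc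
          exact (false_of_simple (hFT G) hc h).elim
      · rw [not_nontrivial_iff_subsingleton] at hnt
        infer_instance

end Main

end Cfsg.Agent.Lib.ClassSize.NoFour
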