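import Mathlib
import Cfsg.Prelude.Def_Transfer

/-!
Counting the primes dividing conjugacy class sizes by averaging over the group.

If `G` has no normal `r`-complement, then at most half of the elements of `G` have class size prime
to `r`: such an element centralizes a Sylow `r`-subgroup, and `N(R) ≠ C(R)` by Burnside's transfer
theorem.
-/

set_option autoImplicit false

namespace Cfsg.Agent.Lib.ClassSize.PrimeCount

open scoped Pointwise

variable {G : Type*} [Group G] [Finite G]

/-- The class size of `x`. -/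
noncomputable abbrev cs (x : G) : ℕ := (Subgroup.centralizer ({x} : Set G)).index

theorem cs_ne_zero (x : G) : cs x ≠ 0 := Subgroup.index_ne_zero_of_finite

/-- A subgroup of index prime to `r` contains a Sylow `r`-subgroup. -/
theorem exists_sylow_le_of_not_dvd {r : ℕ} [Fact r.Prime] (H : Subgroup G) (h : ¬ r ∣ H.index) :
    ∃ S : Sylow r G, (S : Subgroup G) ≤ H := by
  obtain ⟨Q⟩ : Nonempty (Sylow r ↥H) := inferInstance
  have hQ : IsPGroup r ((Q : Subgroup ↥H).map H.subtype) := Q.isPGroup'.map _
  have hi : ¬ r ∣ ((Q : Subgroup ↥H).map H.subtype).index := by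
    rw [Subgroup.index_map_subtype]
    intro hd
    rcases (Nat.Prime.dvd_mul Fact.out).mp hd with h1 | h1
    · exact Q.not_dvd_index h1
    · exact h h1
  refine ⟨hQ.toSylow hi, ?_⟩
  show (Q : Subgroup ↥H).map H.subtype ≤ H
  exact Subgroup.map_subtype_le _

theorem card_centralizer_smul {r : ℕ} [Fact r.Prime] (g : G) (R : Sylow r G) :
    Nat.card ↥(Subgroup.centralizer (((g • R : Sylow r G) : Subgroup G) : Set G)) =
      Nat.card ↥(Subgroup.centralizer ((R : Subgroup G) : Set G)) := by
  have hm : Nat.card ↥((Subgroup.centralizer ((R : Subgroup G) : Set G)).map (MulAut.conj g).toMonoidHom) =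
      Nat.card ↥(Subgroup.centralizer ((R : Subgroup G) : Set G)) :=
    Subgroup.card_map_of_injective (MulAut.conj g).injective
  rw [← hm]
  congr 2
  have hR : ∀ x : G, x ∈ (g • R : Sylow r G) ↔ g⁻¹ * x * g ∈ R := by
    intro x
    rw [Sylow.smul_def]
    change x ∈ ((MulAut.conj g • (R : Subgroup G) : Subgroup G)) ↔ _
    rw [Subgroup.mem_pointwise_smul_iff_inv_smul_mem]
    simp [MulAut.smul_def]
    exact Iff.rfl
  ext x
  constructor
  · intro hxC
    have hxC' := Subgroup.mem_centralizer_iff.mp hxC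
    refine ⟨g⁻¹ * x * g, ?_, ?_⟩
    · show g⁻¹ * x * g ∈ Subgroup.centralizer ((R : Subgroup G) : Set G)
      rw [Subgroup.mem_centralizer_iff]
      intro u hu
      have h1 : g * u * g⁻¹ ∈ (g • R : Sylow r G) := by
        rw [hR]
        simpa [mul_assoc] using hu
      have h2 := hxC' _ h1
      calc u * (g⁻¹ * x * g) = g⁻¹ * ((g * u * g⁻¹) * x) * g := by group
        _ = g⁻¹ * (x * (g * u * g⁻¹)) * g := by rw [h2]
        _ = _ := by group
    · simp [MulAut.conj_apply, mul_assoc]
  · rintro ⟨a, haC, rfl⟩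
    show g * a * g⁻¹ ∈ Subgroup.centralizer _
    rw [Subgroup.mem_centralizer_iff]
    intro u hu
    have h1 : g⁻¹ * u * g ∈ (R : Subgroup G) := (hR u).mp hu
    have h2 := (Subgroup.mem_centralizer_iff.mp haC) _ h1
    calc u * (g * a * g⁻¹) = g * ((g⁻¹ * u * g) * a) * g⁻¹ := by group
      _ = g * (a * (g⁻¹ * u * g)) * g⁻¹ := by rw [h2]
      _ = _ := by group

/-- Burnside: no normal complement forces `N(R) ≠ C(R)`. -/
theorem not_normalizer_le {r : ℕ} [Fact r.Prime] (h : ¬ Cfsg.HasNormalPComplement r G) (R : Sylow r G) :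
    ¬ Subgroup.normalizer ((R : Subgroup G) : Set G) ≤ Subgroup.centralizer ((R : Subgroup G) : Set G) := by
  intro hle
  apply h
  refine ⟨R, (MonoidHom.transferSylow R hle).ker, inferInstance, ?_⟩
  exact MonoidHom.ker_transferSylow_isComplement' R hle

/-- At most half of the elements have class size prime to `r`, if `G` has no normal `r`-complement. -/
theorem two_mul_card_not_dvd {r : ℕ} [Fact r.Prime] (h : ¬ Cfsg.HasNormalPComplement r G) :
    2 * Nat.card {g : G // ¬ r ∣ cs g} ≤ Nat.card G := by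
  classical
  haveI : Fintype G := Fintype.ofFinite G
  haveI : Fintype (Sylow r G) := Fintype.ofFinite _
  obtain ⟨R⟩ : Nonempty (Sylow r G) := inferInstance
  set C : Subgroup G := Subgroup.centralizer ((R : Subgroup G) : Set G) with hC
  set N : Subgroup G := Subgroup.normalizer ((R : Subgroup G) : Set G) with hN
  have hCN : C ≤ N := by
    intro c hc
    rw [hN, Subgroup.mem_normalizer_iff]
    intro x
    have hc' := Subgroup.mem_centralizer_iff.mp hc
    constructor
    · intro hx
      rw [← hc' x hx, mul_inv_cancel_right]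
      exact hx
    · intro hx
      have h1 := hc' _ hx
      have h2 : x = c⁻¹ * (c * x * c⁻¹) * c := by group
      rw [h2, mul_assoc, h1]
      simpa using hx
  have hCN2 : 2 * Nat.card C ≤ Nat.card N := by
    have h1 : Nat.card C * C.relIndex N = Nat.card N := by
      have h2 := Subgroup.card_mul_index (C.subgroupOf N)
      have h3 : Nat.card (C.subgroupOf N) = Nat.card C :=
        Nat.card_congr (Subgroup.subgroupOfEquivOfLe hCN).toEquiv
      rw [h3] at h2
      exact h2
    have h2 : C.relIndex N ≠ 1 := fun h3 => not_normalizer_le h R (Subgroup.relIndex_eq_one.mp h3)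
    have h3 : C.relIndex N ≠ 0 := by
      intro h4
      rw [h4, mul_zero] at h1
      exact Nat.card_pos.ne' h1.symm
    have h4 : 2 ≤ C.relIndex N := by omega
    rw [← h1, mul_comm]
    exact Nat.mul_le_mul_left _ h4
  have hsub : (Finset.univ.filter (fun g : G => ¬ r ∣ cs g)) ⊆
      Finset.univ.biUnion (fun S : Sylow r G =>
        Finset.univ.filter (fun g : G => g ∈ Subgroup.centralizer ((S : Subgroup G) : Set G))) := by
    intro g hg
    have hg' : ¬ r ∣ cs g := (Finset.mem_filter.mp hg).2
    obtain ⟨S, hS⟩ := exists_sylow_le_of_not_dvd _ hg'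
    refine Finset.mem_biUnion.mpr ⟨S, Finset.mem_univ _, Finset.mem_filter.mpr ⟨Finset.mem_univ _, ?_⟩⟩
    rw [Subgroup.mem_centralizer_iff]
    intro u hu
    exact Subgroup.mem_centralizer_singleton_iff.mp (hS hu)
  have hcardF : ∀ S : Sylow r G, (Finset.univ.filter (fun g : G =>
      g ∈ Subgroup.centralizer ((S : Subgroup G) : Set G))).card = Nat.card C := by
    intro S
    obtain ⟨g, rfl⟩ := MulAction.exists_smul_eq G R S
    rw [hC, ← card_centralizer_smul g R, ← Fintype.card_subtype, ← Nat.card_eq_fintype_card]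
  have hE : Nat.card {g : G // ¬ r ∣ cs g} ≤ Nat.card (Sylow r G) * Nat.card C := by
    rw [Nat.card_eq_fintype_card, Fintype.card_subtype]
    calc _ ≤ _ := Finset.card_le_card hsub
      _ ≤ ∑ S : Sylow r G, (Finset.univ.filter (fun g : G =>
            g ∈ Subgroup.centralizer ((S : Subgroup G) : Set G))).card := Finset.card_biUnion_le
      _ = _ := by
          simp_rw [hcardF]
          rw [Finset.sum_const, Finset.card_univ, smul_eq_mul, Nat.card_eq_fintype_card (α := Sylow r G)]
  have hn : Nat.card (Sylow r G) * Nat.card N = Nat.card G := by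
    rw [Sylow.card_eq_index_normalizer R, mul_comm]
    exact Subgroup.card_mul_index N
  calc 2 * Nat.card {g : G // ¬ r ∣ cs g} ≤ 2 * (Nat.card (Sylow r G) * Nat.card C) := by gcongr
    _ = Nat.card (Sylow r G) * (2 * Nat.card C) := by ring
    _ ≤ Nat.card (Sylow r G) * Nat.card N := by gcongr
    _ = _ := hn

/-- The set of primes dividing some class size, as a finset. -/
noncomputable def rhoSet (G : Type*) [Group G] [Fintype G] : Finset ℕ :=
  Finset.univ.biUnion fun g : G => (cs g).primeFactors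

theorem mem_rhoSet [Fintype G] {p : ℕ} : p ∈ rhoSet G ↔ p.Prime ∧ ∃ x : G, p ∣ cs x := by
  simp only [rhoSet, Finset.mem_biUnion, Finset.mem_univ, true_and, Nat.mem_primeFactors]
  constructor
  · rintro ⟨x, hp, hd, -⟩
    exact ⟨hp, x, hd⟩
  · rintro ⟨hp, x, hd⟩
    exact ⟨x, hp, hd, cs_ne_zero x⟩

theorem card_set_eq [Fintype G] :
    Nat.card {p : ℕ | p.Prime ∧ ∃ x : G, p ∣ (Subgroup.centralizer ({x} : Set G)).index} = (rhoSet G).card := by
  classical
  have : {p : ℕ | p.Prime ∧ ∃ x : G, p ∣ (Subgroup.centralizer ({x} : Set G)).index} = ↑(rhoSet G) := by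
    ext p
    exact mem_rhoSet.symm
  rw [this, Nat.card_coe_set_eq, Set.ncard_coe_finset]

/-- Double counting: the sum of the numbers of primes of the class sizes. -/
theorem sum_card_primeFactors [Fintype G] (A : Finset ℕ) [DecidablePred fun g : G => True] :
    ∑ p ∈ A, (Finset.univ.filter fun g : G => p ∈ (cs g).primeFactors).card ≤
      ∑ g : G, (cs g).primeFactors.card := by
  classical
  simp_rw [Finset.card_filter]
  rw [Finset.sum_comm]
  refine Finset.sum_le_sum fun g _ => ?_
  rw [← Finset.card_filter]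
  apply Finset.card_le_card
  intro p hp
  exact (Finset.mem_filter.mp hp).2

/-- The bound, for a finset `A` of primes at which `G` has no normal complement. -/
theorem card_le_of_no_complement [Fintype G] (σ : ℕ) (hσ : ∀ x : G, (cs x).primeFactors.card ≤ σ)
    (A : Finset ℕ) (hA : ∀ p ∈ A, p.Prime ∧ ¬ Cfsg.HasNormalPComplement p G) :
    A.card ≤ 2 * σ := by
  classical
  have h1 := sum_card_primeFactors (G := G) A
  have h2 : ∑ g : G, (cs g).primeFactors.card ≤ Nat.card G * σ := by
    rw [Nat.card_eq_fintype_card, ← Finset.card_univ, ← smul_eq_mul, ← Finset.sum_const]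
    exact Finset.sum_le_sum fun g _ => hσ g
  have h3 : ∀ p ∈ A, Nat.card G ≤ 2 * (Finset.univ.filter fun g : G => p ∈ (cs g).primeFactors).card := by
    intro p hp
    obtain ⟨hpp, hnc⟩ := hA p hp
    haveI : Fact p.Prime := ⟨hpp⟩
    have h4 := two_mul_card_not_dvd hnc
    have h5 : Nat.card {g : G // ¬ p ∣ cs g} + (Finset.univ.filter fun g : G => p ∈ (cs g).primeFactors).card =
        Nat.card G := by
      rw [Nat.card_eq_fintype_card, Fintype.card_subtype, Nat.card_eq_fintype_card, ← Finset.card_univ]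
      rw [← Finset.card_filter_add_card_filter_not (s := Finset.univ) (fun g : G => ¬ p ∣ cs g)]
      congr 2
      ext g
      simp [hpp, cs_ne_zero g]
    omega
  have h6 : A.card * Nat.card G ≤ 2 * (Nat.card G * σ) := by
    calc A.card * Nat.card G = ∑ _p ∈ A, Nat.card G := by rw [Finset.sum_const, smul_eq_mul]
      _ ≤ ∑ p ∈ A, 2 * (Finset.univ.filter fun g : G => p ∈ (cs g).primeFactors).card :=
          Finset.sum_le_sum h3
      _ = 2 * ∑ p ∈ A, (Finset.univ.filter fun g : G => p ∈ (cs g).primeFactors).card := by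
          rw [Finset.mul_sum]
      _ ≤ _ := by omega
  have hpos : 0 < Nat.card G := Nat.card_pos
  have h7 : A.card * Nat.card G ≤ (2 * σ) * Nat.card G := by
    calc _ ≤ _ := h6
      _ = _ := by ring
  exact Nat.le_of_mul_le_mul_right h7 hpos

/-- One more prime dividing a class size improves the bound by one. -/
theorem card_lt_of_extra [Fintype G] (σ : ℕ) (hσ : ∀ x : G, (cs x).primeFactors.card ≤ σ)
    (A : Finset ℕ) (hA : ∀ p ∈ A, p.Prime ∧ ¬ Cfsg.HasNormalPComplement p G)
    (p₀ : ℕ) (hp₀ : p₀ ∉ A) (hp₀p : p₀.Prime) (x₀ : G) (hx₀ : p₀ ∣ cs x₀) :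
    A.card + 1 ≤ 2 * σ := by
  classical
  have h1 := sum_card_primeFactors (G := G) (insert p₀ A)
  rw [Finset.sum_insert hp₀] at h1
  have h2 : ∑ g : G, (cs g).primeFactors.card ≤ Nat.card G * σ := by
    rw [Nat.card_eq_fintype_card, ← Finset.card_univ, ← smul_eq_mul, ← Finset.sum_const]
    exact Finset.sum_le_sum fun g _ => hσ g
  have h0 : 1 ≤ (Finset.univ.filter fun g : G => p₀ ∈ (cs g).primeFactors).card := by
    apply Finset.card_pos.mpr
    exact ⟨x₀, Finset.mem_filter.mpr ⟨Finset.mem_univ _, Nat.mem_primeFactors.mpr ⟨hp₀p, hx₀, cs_ne_zero x₀⟩⟩⟩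
  have h3 : ∀ p ∈ A, Nat.card G ≤ 2 * (Finset.univ.filter fun g : G => p ∈ (cs g).primeFactors).card := by
    intro p hp
    obtain ⟨hpp, hnc⟩ := hA p hp
    haveI : Fact p.Prime := ⟨hpp⟩
    have h4 := two_mul_card_not_dvd hnc
    have h5 : Nat.card {g : G // ¬ p ∣ cs g} + (Finset.univ.filter fun g : G => p ∈ (cs g).primeFactors).card =
        Nat.card G := by
      rw [Nat.card_eq_fintype_card, Fintype.card_subtype, Nat.card_eq_fintype_card, ← Finset.card_univ]
      rw [← Finset.card_filter_add_card_filter_not (s := Finset.univ) (fun g : G => ¬ p ∣ cs g)]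
      congr 2
      ext g
      simp [hpp, cs_ne_zero g]
    omega
  have h6 : A.card * Nat.card G + 2 ≤ 2 * (Nat.card G * σ) := by
    have h7 : A.card * Nat.card G ≤ 2 * ∑ p ∈ A, (Finset.univ.filter fun g : G => p ∈ (cs g).primeFactors).card := by
      calc A.card * Nat.card G = ∑ _p ∈ A, Nat.card G := by rw [Finset.sum_const, smul_eq_mul]
        _ ≤ ∑ p ∈ A, 2 * (Finset.univ.filter fun g : G => p ∈ (cs g).primeFactors).card :=
            Finset.sum_le_sum h3
        _ = _ := by rw [Finset.mul_sum]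
    omega
  have hpos : 0 < Nat.card G := Nat.card_pos
  by_contra hlt
  have h8 : 2 * σ ≤ A.card := by omega
  have h9 : 2 * σ * Nat.card G ≤ A.card * Nat.card G := Nat.mul_le_mul_right _ h8
  have h10 : 2 * (Nat.card G * σ) = 2 * σ * Nat.card G := by ring
  omega

/-- **The bound `ρ ≤ 2σ`** when at most one prime has a normal complement. -/
theorem card_rho_le [Fintype G] (σ : ℕ) (hσ : ∀ x : G, (cs x).primeFactors.card ≤ σ)
    (hnil : ∀ p q : ℕ, p.Prime → q.Prime → p ∣ Nat.card G → q ∣ Nat.card G →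
      Cfsg.HasNormalPComplement p G → Cfsg.HasNormalPComplement q G → p = q) :
    (rhoSet G).card ≤ 2 * σ := by
  classical
  have hdvd : ∀ p ∈ rhoSet G, p ∣ Nat.card G := by
    intro p hp
    obtain ⟨-, x, hx⟩ := mem_rhoSet.mp hp
    exact hx.trans (Subgroup.index_dvd_card _)
  by_cases hex : ∃ p₀ ∈ rhoSet G, Cfsg.HasNormalPComplement p₀ G
  · obtain ⟨p₀, hp₀, hc₀⟩ := hex
    obtain ⟨hpp, x₀, hx₀⟩ := mem_rhoSet.mp hp₀
    set A := (rhoSet G).erase p₀ with hA
    have hAc : ∀ p ∈ A, p.Prime ∧ ¬ Cfsg.HasNormalPComplement p G := by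
      intro p hp
      obtain ⟨hne, hpr⟩ := Finset.mem_erase.mp hp
      refine ⟨(mem_rhoSet.mp hpr).1, fun hc => hne ?_⟩
      exact hnil p p₀ (mem_rhoSet.mp hpr).1 hpp (hdvd p hpr) (hdvd p₀ hp₀) hc hc₀
    have h1 := card_lt_of_extra σ hσ A hAc p₀ (Finset.notMem_erase p₀ _) hpp x₀ hx₀
    have h2 : (rhoSet G).card = A.card + 1 := (Finset.card_erase_add_one hp₀).symm
    omega
  · push Not at hex
    exact card_le_of_no_complement σ hσ _ fun p hp => ⟨(mem_rhoSet.mp hp).1, hex p hp⟩

end Cfsg.Agent.Lib.ClassSize.PrimeCount
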